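import Cfsg.Agent.Lib.H9.Metacyclic

/-!
# Blackburn's criterion for metacyclic `2`-groups
-/

set_option autoImplicit false
set_option linter.unusedSectionVars false

namespace Cfsg.Agent.H3.Bic

open Subgroup Cfsg.Agent.H9
open scoped commutatorElement

/-- The derived subgroup. -/
scoped notation "𝒟(" G ")" => ⁅(⊤ : Subgroup G), (⊤ : Subgroup G)⁆

universe u

variable {G : Type*} [Group G] {K L N P : Subgroup G} {a b g h m u v x y z : G}

/-- `N` is generated by two elements. -/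
def Gen2 (N : Subgroup G) : Prop := ∃ u v, zpowers u ⊔ zpowers v = N

/-- `N` is metacyclic. -/
def Meta (N : Subgroup G) : Prop := ∃ u v, MetaGen N u v

theorem Meta.gen2 (h : Meta N) : Gen2 N := let ⟨u, v, h⟩ := h; ⟨u, v, h.sup_eq⟩

theorem Meta.of_le (h : Meta N) (hK : K ≤ N) : Meta K :=
  let ⟨_, _, h⟩ := h
  let ⟨_, y, _, h'⟩ := h.of_le hK
  ⟨_, y, h'⟩

theorem Gen2.map {H : Type*} [Group H] (h : Gen2 N) (f : G →* H) : Gen2 (N.map f) :=
  let ⟨u, v, h⟩ := h
  ⟨f u, f v, by rw [← h, Subgroup.map_sup, MonoidHom.map_zpowers, MonoidHom.map_zpowers]⟩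

theorem Meta.map {H : Type*} [Group H] (h : Meta N) (f : G →* H) : Meta (N.map f) :=
  let ⟨_, _, h⟩ := h
  ⟨_, _, h.map f⟩

theorem Gen2.dvd (h : Gen2 N) : (Phi 2 N).relIndex N ∣ 4 :=
  let ⟨_, _, h⟩ := h
  relIndex_Phi_dvd_sq (p := 2) h

theorem card_le_of_dvd [Finite N] (hK : K ≤ N) {n : ℕ} (hn : 0 < n) (h : K.relIndex N ∣ n) :
    Nat.card N ≤ n * Nat.card K := by
  rw [← relIndex_bot_left N, ← relIndex_mul_relIndex ⊥ K N bot_le hK, relIndex_bot_left, mul_comm]
  exact Nat.mul_le_mul_right _ (Nat.le_of_dvd hn h)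

theorem lt_sup_zpowers (hx : x ∉ K) : K < K ⊔ zpowers x :=
  lt_of_le_of_ne le_sup_left fun e => hx (e ▸ mem_sup_right (mem_zpowers x))

theorem gen_of [Finite P] (hP : IsPGroup 2 P) (hi : (Phi 2 P).relIndex P ∣ 4) (hu : u ∈ P)
    (hg : g ∈ P) (hu' : u ∉ Phi 2 P) (hg' : g ∉ Phi 2 P ⊔ zpowers u) :
    zpowers u ⊔ zpowers g = P := by
  have h1 : Phi 2 P ⊔ zpowers u ≤ P := sup_le (Phi_le P) (zpowers_le.2 hu)
  have h2 : Phi 2 P ⊔ zpowers u ⊔ zpowers g ≤ P := sup_le h1 (zpowers_le.2 hg)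
  haveI := finite_of_le h1
  haveI := finite_of_le h2
  have h3 := mul_card_le_of_lt (hP.to_le h1) (lt_sup_zpowers hu')
  have h4 := mul_card_le_of_lt (hP.to_le h2) (lt_sup_zpowers hg')
  have h5 := card_le_of_dvd (Phi_le P) (by norm_num) hi
  refine eq_of_le_sup_Phi hP (sup_le (zpowers_le.2 hu) (zpowers_le.2 hg)) ?_
  rw [sup_comm, ← sup_assoc]
  exact (eq_of_le_of_card_ge h2 (by omega)).ge

theorem metaGen_of [Finite G] (h1 : zpowers a ⊔ zpowers b = N) (h2 : b * a * b⁻¹ ∈ zpowers a) :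
    MetaGen N a b := by
  refine ⟨?_, h1⟩
  rw [← h1]
  refine sup_le le_normalizer (zpowers_le.2 (mem_normalizer_of_conj_mem ?_))
  rintro _ ⟨k, rfl⟩
  simpa only [conj_zpow] using zpow_mem h2 k

/-- The subgroup `Φ(G') γ₃(G)`. -/
def RR (G : Type*) [Group G] : Subgroup G :=
  Phi 2 𝒟(G) ⊔ ⁅𝒟(G), (⊤ : Subgroup G)⁆

theorem Phi_normal (N : Subgroup G) [N.Normal] : (Phi 2 N).Normal :=
  normalizer_eq_top_iff.1 (top_le_iff.1
    ((normalizer_eq_top N).ge.trans (normalizer_le_normalizer_Phi N)))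

instance RR_normal : (RR G).Normal := by
  haveI := Phi_normal 𝒟(G)
  exact Subgroup.sup_normal _ _

theorem RR_le : RR G ≤ 𝒟(G) :=
  sup_le (Phi_le _) (commutator_mono le_top le_rfl)

theorem RR_le_Phi : RR G ≤ Phi 2 ⊤ := RR_le.trans (commutator_le_Phi _)

theorem map_RR {H : Type*} [Group H] {f : G →* H} (hf : Function.Surjective f) :
    (RR G).map f = RR H := by
  simp only [RR, Subgroup.map_sup, map_Phi, map_commutator, map_top_of_surjective f hf]

theorem mem_map_mk {N : Subgroup G} [N.Normal] :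
    QuotientGroup.mk' N x ∈ K.map (QuotientGroup.mk' N) ↔ x ∈ K ⊔ N := by
  rw [← mem_comap, comap_map_eq, QuotientGroup.ker_mk']

theorem blackburn_aux (n : ℕ) : ∀ (G : Type u) [Group G] [Finite G], Nat.card G = n →
    IsPGroup 2 G → ∀ u g : G, zpowers u ⊔ zpowers g = ⊤ → ⁅u, g⁆ ∈ zpowers u ⊔ RR G →
    Meta (⊤ : Subgroup G) := by
  induction n using Nat.strong_induction_on with | _ n ih => ?_
  intro G _ _ hn hG u g h1 h2
  by_cases hR : RR G = ⊥
  · rw [hR, sup_bot_eq] at h2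
    refine ⟨u, g, metaGen_of h1 ?_⟩
    convert mul_mem (inv_mem h2) (mem_zpowers u) using 1
    simp only [commutatorElement_def]
    group
  obtain ⟨z, hz, hz1, hz2, hc⟩ := exists_mem_centralizer_ne_one (hG.to_subgroup (RR G))
    (hG.to_subgroup ⊤) (normalizer_eq_top _).ge hR
  haveI : (zpowers z).Normal := ⟨by
    rintro _ ⟨k, rfl⟩ g
    rw [← conj_zpow, hc g trivial, mul_inv_cancel_right]
    exact zpow_mem_zpowers z k⟩
  have hs := QuotientGroup.mk'_surjective (zpowers z)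
  obtain ⟨a, b, hab⟩ := ih (Nat.card (G ⧸ zpowers z)) (by
    rw [← hn, card_eq_card_quotient_mul_card_subgroup (zpowers z),
      card_zpowers_of_pow_prime hz2 hz1]
    have := Nat.card_pos (α := G ⧸ zpowers z)
    omega) (G ⧸ zpowers z) rfl (hG.to_quotient _) (QuotientGroup.mk' _ u)
      (QuotientGroup.mk' _ g) (by
      simpa only [Subgroup.map_sup, MonoidHom.map_zpowers, map_top_of_surjective _ hs] using
        congrArg (map (QuotientGroup.mk' (zpowers z))) h1) (by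
      simpa only [Subgroup.map_sup, MonoidHom.map_zpowers, map_RR hs, map_commutatorElement] using
        mem_map_of_mem (QuotientGroup.mk' (zpowers z)) h2)
  obtain ⟨a, rfl⟩ := hs a
  obtain ⟨b, rfl⟩ := hs b
  have h3 : zpowers a ⊔ zpowers b = ⊤ := by
    refine eq_of_le_sup_Phi (hG.to_subgroup ⊤) le_top fun x _ => ?_
    refine sup_le_sup_left (zpowers_le.2 (RR_le_Phi hz)) _ (mem_map_mk.1 ?_)
    rw [Subgroup.map_sup, MonoidHom.map_zpowers, MonoidHom.map_zpowers, hab.sup_eq]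
    trivial
  have h4 : b * a * b⁻¹ ∈ zpowers a ⊔ zpowers z := mem_map_mk.1 (by
    rw [MonoidHom.map_zpowers, map_mul, map_mul, map_inv]
    exact conj_mem_of_mem_normalizer (hab.norm (mem_top _)) (mem_zpowers _))
  refine ⟨a, b, metaGen_of h3 ?_⟩
  suffices h : z ∈ zpowers a by rwa [sup_eq_left.2 (zpowers_le.2 h)] at h4
  have h5 : ⁅a, b⁆ ∈ zpowers a ⊔ zpowers z := by
    convert mul_mem (mem_sup_left (mem_zpowers a)) (inv_mem h4) using 1
    simp only [commutatorElement_def]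
    group
  have hcz : ∀ x, Commute x z := fun x => hc x trivial
  obtain ⟨_, ⟨i, rfl⟩, j, e⟩ := (mem_sup_zpowers (mem_normalizer_of_conj_mem fun x hx => by
    rwa [← (hcz x).eq, mul_inv_cancel_right])).1 h5
  simp only at e
  have e1 : b * a * b⁻¹ = ⁅a, b⁆⁻¹ * a := by simp only [commutatorElement_def]; group
  generalize hd : ⁅a, b⁆ = d at e e1
  have c1 : Commute a d := e ▸ (Commute.self_zpow a i).mul_right ((hcz a).zpow_right j)
  have h6 : (⊤ : Subgroup G) ≤ normalizer (zpowers d : Set G) := by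
    rw [← h3]
    refine sup_le (zpowers_le.2 (mem_normalizer_of_conj_mem ?_))
      (zpowers_le.2 (mem_normalizer_of_conj_mem ?_))
    · rintro _ ⟨k, rfl⟩
      rw [(c1.zpow_right k).eq, mul_inv_cancel_right]
      exact zpow_mem_zpowers d k
    · rintro _ ⟨k, rfl⟩
      rw [← conj_zpow]
      refine zpow_mem ?_ k
      have : b * d * b⁻¹ = d⁻¹ ^ i * d := by
        conv_lhs => rw [e, ← conj_mul, ← conj_zpow, e1, c1.symm.inv_left.mul_zpow,
          ((hcz b).zpow_right j).eq, mul_inv_cancel_right, mul_assoc, ← e]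
      rw [this]
      exact mul_mem (zpow_mem (inv_mem (mem_zpowers d)) i) (mem_zpowers d)
  have h7 := commutator_le_of_sup_zpowers h6 h3 (hd ▸ mem_zpowers d)
  have h8 : RR G ≤ Phi 2 (zpowers d) := by
    refine sup_le (Phi_mono h7) (commutator_le.2 fun x hx y _ => ?_)
    rw [← commutatorElement_inv]
    refine inv_mem (commutator_mem_of_relIndex_prime (p := 2) (hG.to_subgroup ⊤) le_top
      (h6.trans (normalizer_le_normalizer_Phi _)) h6 (Phi_le _) ?_ trivial (h7 hx))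
    have := relIndex_sup_zpowers_dvd (le_normalizer_Phi (p := 2) _ (mem_zpowers d))
      (pow_mem_Phi (mem_zpowers d))
    rwa [sup_eq_right.2 (Phi_le _)] at this
  refine (h8.trans (Phi_le_iff.2 ⟨?_, ?_⟩)) hz
  · rintro _ ⟨k, rfl⟩
    simp only
    rw [← zpow_natCast, ← zpow_mul, mul_comm, zpow_mul, zpow_natCast]
    refine zpow_mem ?_ k
    rw [e, (((hcz a).zpow_left i).zpow_right j).mul_pow, ← zpow_natCast (z ^ j), ← zpow_mul,
      mul_comm j, zpow_mul, zpow_natCast, hz2, one_zpow, mul_one]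
    exact pow_mem (zpow_mem_zpowers a i) 2
  · rintro _ ⟨k, rfl⟩ _ ⟨l, rfl⟩
    rw [commutatorElement_eq_one_iff_commute.2 (Commute.zpow_zpow_self d k l)]
    exact one_mem _

/-- Blackburn's criterion. -/
theorem blackburn [Finite G] (hG : IsPGroup 2 G) (h1 : zpowers u ⊔ zpowers g = ⊤)
    (h2 : ⁅u, g⁆ ∈ zpowers u ⊔ RR G) : Meta (⊤ : Subgroup G) :=
  blackburn_aux _ G rfl hG u g h1 h2

end Cfsg.Agent.H3.Bic
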