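import Cfsg.Agent.Lib.H3.Bic0

/-!
# Two-generator `2`-groups that are not metacyclic
-/

set_option autoImplicit false
set_option linter.unusedSectionVars false

namespace Cfsg.Agent.H3.Bic

open Subgroup Cfsg.Agent.H9
open scoped commutatorElement

variable {G : Type*} [Group G] {K L N P : Subgroup G} {a b g h m u v x y z : G}

theorem mul_sq' (g h : G) : (g * h) ^ 2 = g ^ 2 * (g⁻¹ * ⁅h, g⁆ * g) * h ^ 2 := by
  simp only [commutatorElement_def, pow_two]; group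

theorem mem_zpowers_two (hz : z ^ 2 = 1) (hx : x ∈ zpowers z) : x = 1 ∨ x = z := by
  obtain ⟨k, rfl⟩ := hx
  obtain ⟨j, rfl | rfl⟩ := Int.even_or_odd' k
  · left; simp only; rw [zpow_mul, zpow_ofNat, hz, one_zpow]
  · right; simp only; rw [zpow_add_one, zpow_mul, zpow_ofNat, hz, one_zpow, one_mul]

theorem mem_of_odd_zpow [Finite G] (hG : IsPGroup 2 G) {i : ℤ} (hi : Odd i) (h : g ^ i ∈ K) :
    g ∈ K := by
  obtain ⟨k, hk⟩ := hG g
  exact mem_of_zpow_mem_of_not_dvd (p := 2) (k := k) (hk ▸ one_mem K)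
    (fun e => Int.not_even_iff_odd.2 hi (even_iff_two_dvd.2 e)) h

/-- A minimal nonabelian `2`-group. -/
structure C2 (x y : G) : Prop where
  pg : IsPGroup 2 G
  gen : zpowers x ⊔ zpowers y = ⊤
  cen : ∀ g, Commute ⁅x, y⁆ g
  sq : ⁅x, y⁆ ^ 2 = 1
  ne : ⁅x, y⁆ ≠ 1

namespace C2

variable [Finite G] (H : C2 x y)
include H

theorem norm (hz : ∀ g, Commute z g) : (⊤ : Subgroup G) ≤ normalizer (zpowers z : Set G) :=
  fun g _ => mem_normalizer_of_conj_mem (by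
    rintro _ ⟨k, rfl⟩
    rw [← ((hz g).zpow_left k).eq, mul_inv_cancel_right]
    exact zpow_mem_zpowers z k)

theorem der : 𝒟(G) ≤ zpowers ⁅x, y⁆ :=
  commutator_le_of_sup_zpowers (H.norm H.cen) H.gen (mem_zpowers _)

theorem cm (g h : G) : ⁅g, h⁆ = 1 ∨ ⁅g, h⁆ = ⁅x, y⁆ :=
  mem_zpowers_two H.sq (H.der (commutator_mem_commutator trivial trivial))

theorem cen' (g h k : G) : Commute ⁅g, h⁆ k := by
  rcases H.cm g h with e | e <;> rw [e]
  exacts [Commute.one_left k, H.cen k]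

theorem sq' (g h : G) : ⁅g, h⁆ ^ 2 = 1 := by
  rcases H.cm g h with e | e <;> rw [e]
  exacts [one_pow 2, H.sq]

theorem sqc (g h : G) : Commute (g ^ 2) h := by
  rw [← commutatorElement_eq_one_iff_commute,
    commutator_pow_left_of_commute (H.cen' g h g).symm, H.sq']

theorem mul_sq (g h : G) : (g * h) ^ 2 = g ^ 2 * h ^ 2 * ⁅h, g⁆ := by
  rw [mul_sq', mul_assoc g⁻¹, (H.cen' h g g).eq, inv_mul_cancel_left, mul_assoc, mul_assoc,
    (H.cen' h g _).eq]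

theorem comm_eq (hg : zpowers g ⊔ zpowers h = ⊤) : ⁅g, h⁆ = ⁅x, y⁆ :=
  (H.cm g h).resolve_left fun e => H.ne (by
    have := commutator_le_of_sup_zpowers (K := ⊥) (normalizer_eq_top _).ge hg (mem_bot.2 e)
    exact mem_bot.1 (this (commutator_mem_commutator trivial trivial)))

theorem of_gen (hg : zpowers g ⊔ zpowers h = ⊤) : C2 g h :=
  ⟨H.pg, hg, H.cen' g h, H.sq' g h, H.comm_eq hg ▸ H.ne⟩

theorem symm : C2 y x := H.of_gen (sup_comm (zpowers x) _ ▸ H.gen)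

theorem comm_symm : ⁅y, x⁆ = ⁅x, y⁆ := H.comm_eq H.symm.gen

theorem not_both (hx : x ∈ Phi 2 ⊤ ⊔ zpowers u) (hy : y ∈ Phi 2 ⊤ ⊔ zpowers u) : False := by
  have := eq_of_le_sup_Phi (H.pg.to_subgroup ⊤) (le_top (a := zpowers u)) (by
    rw [sup_comm]; exact H.gen.ge.trans (sup_le (zpowers_le.2 hx) (zpowers_le.2 hy)))
  obtain ⟨k, hk⟩ := this.ge (mem_top y)
  obtain ⟨l, hl⟩ := this.ge (mem_top x)
  exact H.ne (by
    rw [← hk, ← hl]; exact commutatorElement_eq_one_iff_commute.2 (Commute.zpow_zpow_self u l k))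

theorem y_not : y ∉ Phi 2 ⊤ ⊔ zpowers x := H.not_both (mem_sup_right (mem_zpowers x))

theorem x_not : x ∉ Phi 2 ⊤ := fun e => H.symm.y_not (mem_sup_left e)

theorem gen' (hu : u ∉ Phi 2 ⊤) (hg : g ∉ Phi 2 ⊤ ⊔ zpowers u) : C2 u g :=
  H.of_gen (gen_of (H.pg.to_subgroup ⊤) (Gen2.dvd ⟨x, y, H.gen⟩) trivial trivial hu hg)

theorem not_mem {i j : ℤ} (h : Odd i ∨ Odd j) : x ^ i * y ^ j ∉ Phi 2 ⊤ := fun e => by
  have := dvd_of_zpow_mul_zpow_mem (p := 2) H.x_not H.y_not (pow_mem_Phi trivial)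
    (pow_mem_Phi trivial) e
  simp only [← Int.not_even_iff_odd, even_iff_two_dvd] at h
  tauto

theorem mem_sq (h : g ∈ zpowers (x ^ 2) ⊔ zpowers (y ^ 2)) :
    ∃ i j : ℤ, g = (x ^ i) ^ 2 * (y ^ j) ^ 2 := by
  obtain ⟨_, ⟨i, rfl⟩, j, e⟩ := (mem_sup_zpowers (mem_normalizer_of_conj_mem fun z hz => by
    rwa [(H.sqc y z).eq, mul_inv_cancel_right])).1 h
  refine ⟨i, j, e.trans ?_⟩
  simp only [← zpow_natCast, ← zpow_mul, mul_comm]

theorem Phi_eq : Phi 2 ⊤ = zpowers (x ^ 2) ⊔ zpowers (y ^ 2) ⊔ zpowers ⁅x, y⁆ := by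
  refine le_antisymm ?_ (sup_le (sup_le (zpowers_le.2 (pow_mem_Phi trivial))
    (zpowers_le.2 (pow_mem_Phi trivial))) (zpowers_le.2 (commutator_mem_Phi trivial trivial)))
  have k : ∀ g h : G, ⁅g, h⁆ ∈ zpowers (x ^ 2) ⊔ zpowers (y ^ 2) ⊔ zpowers ⁅x, y⁆ := fun g h =>
    mem_sup_right (H.der (commutator_mem_commutator trivial trivial))
  let X : Subgroup G :=
    { carrier := {g | g ^ 2 ∈ zpowers (x ^ 2) ⊔ zpowers (y ^ 2) ⊔ zpowers ⁅x, y⁆}
      one_mem' := by simp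
      mul_mem' := fun {g h} hg hh => by
        rw [Set.mem_setOf_eq, H.mul_sq]; exact mul_mem (mul_mem hg hh) (k _ _)
      inv_mem' := fun {g} hg => by rw [Set.mem_setOf_eq, inv_pow]; exact inv_mem hg }
  refine Phi_le_iff.2 ⟨fun g _ => ?_, fun g _ h _ => k g h⟩
  exact (H.gen.ge.trans (sup_le (zpowers_le.2 (show x ∈ X from mem_sup_left (mem_sup_left
    (mem_zpowers _)))) (zpowers_le.2 (show y ∈ X from mem_sup_left (mem_sup_right
    (mem_zpowers _)))))) (mem_top g)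

theorem Phi_cen (hg : g ∈ Phi 2 ⊤) (h : G) : Commute g h := by
  have : Phi 2 ⊤ ≤ centralizer {h} := Phi_le_iff.2
    ⟨fun g _ => mem_centralizer_singleton_iff.2 (H.sqc g h).eq,
      fun g _ k _ => mem_centralizer_singleton_iff.2 (H.cen' g k h).eq⟩
  exact mem_centralizer_singleton_iff.1 (this hg)

theorem four (g h : G) : (g * h) ^ 4 = (g ^ 2 * h ^ 2) ^ 2 := by
  rw [show 4 = 2 * 2 from rfl, pow_mul, H.mul_sq, (H.cen' h g _).symm.mul_pow, H.sq', mul_one]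

theorem exists_root (m : G) : ∃ u ∉ Phi 2 (⊤ : Subgroup G), m ^ 2 ∈ zpowers u := by
  by_cases hm : m ∈ Phi 2 ⊤
  swap
  · exact ⟨m, hm, npow_mem_zpowers m 2⟩
  have k : ∀ (n : ℕ) (i j : ℤ), i.natAbs + j.natAbs = n →
      ∃ u ∉ Phi 2 (⊤ : Subgroup G), ((x ^ i) ^ 2 * (y ^ j) ^ 2) ^ 2 ∈ zpowers u := by
    intro n
    induction n using Nat.strong_induction_on with | _ n ih => ?_
    intro i j hn
    by_cases h : Odd i ∨ Odd j
    · exact ⟨_, H.not_mem h, H.four _ _ ▸ npow_mem_zpowers _ 4⟩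
    simp only [not_or, Int.not_odd_iff_even] at h
    obtain ⟨⟨i, rfl⟩, j, rfl⟩ := h
    rcases Nat.eq_zero_or_pos n with rfl | h0
    · obtain rfl : i = 0 := by omega
      obtain rfl : j = 0 := by omega
      exact ⟨x, H.x_not, by simp⟩
    obtain ⟨u, hu, hu'⟩ := ih _ (by omega) i j rfl
    refine ⟨u, hu, ?_⟩
    rw [zpow_add, zpow_add, ← pow_two, ← pow_two, ← (H.sqc _ _).mul_pow]
    exact pow_mem hu' 2
  rw [H.Phi_eq] at hm
  obtain ⟨g, hg, l, rfl⟩ := (mem_sup_zpowers (mem_normalizer_of_conj_mem fun z hz => by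
    rwa [(H.cen z).eq, mul_inv_cancel_right])).1 hm
  obtain ⟨i, j, rfl⟩ := H.mem_sq hg
  rw [((H.cen _).symm.zpow_right l).mul_pow, ← zpow_natCast (_ ^ l), ← zpow_mul, mul_comm l,
    zpow_mul, zpow_natCast, H.sq, one_zpow, mul_one]
  exact k _ i j rfl

theorem key1 (h : Gen2 (Phi 2 ⊤ ⊔ zpowers x)) :
    ⁅x, y⁆ ∈ zpowers (x ^ 2) ⊔ zpowers (y ^ 2) ∨ y ^ 2 ∈ zpowers (x ^ 2) := by
  by_contra! hn
  have h1 : Phi 2 (Phi 2 ⊤ ⊔ zpowers x) ≤ zpowers (x ^ 2) ⊔ zpowers (y ^ 4) := by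
    have c : ∀ g ∈ Phi 2 ⊤ ⊔ zpowers x, ∀ k ∈ Phi 2 ⊤ ⊔ zpowers x, g * k = k * g :=
      fun g hg k hk => mul_comm_of_le_sup_zpowers (mem_sup_right (mem_zpowers x))
        (fun k hk h _ => (H.Phi_cen hk h).eq) le_rfl hg hk
    refine Phi_le_iff.2 ⟨fun g hg => ?_, fun g hg k hk => by
      rw [commutatorElement_eq_one_iff_mul_comm.2 (c g hg k hk)]; exact one_mem _⟩
    let X : Subgroup G :=
      { carrier := {g | g ∈ Phi 2 ⊤ ⊔ zpowers x ∧ g ^ 2 ∈ zpowers (x ^ 2) ⊔ zpowers (y ^ 4)}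
        one_mem' := by simp
        mul_mem' := fun {g h} hg hh => ⟨mul_mem hg.1 hh.1, by
          rw [Commute.mul_pow (c g hg.1 h hh.1)]; exact mul_mem hg.2 hh.2⟩
        inv_mem' := fun {g} hg => ⟨inv_mem hg.1, by rw [inv_pow]; exact inv_mem hg.2⟩ }
    have : Phi 2 ⊤ ⊔ zpowers x ≤ X := by
      refine sup_le (H.Phi_eq.le.trans (sup_le (sup_le ?_ ?_) ?_)) ?_ <;> rw [zpowers_le]
      · exact ⟨mem_sup_left (pow_mem_Phi trivial), mem_sup_left (npow_mem_zpowers _ 2)⟩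
      · exact ⟨mem_sup_left (pow_mem_Phi trivial), mem_sup_right (by
          rw [← pow_mul]; exact mem_zpowers _)⟩
      · exact ⟨mem_sup_left (commutator_mem_Phi trivial trivial), by rw [H.sq]; exact one_mem _⟩
      · exact ⟨mem_sup_right (mem_zpowers x), mem_sup_left (mem_zpowers _)⟩
    exact (this hg).2
  have h2 : zpowers (x ^ 2) ⊔ zpowers (y ^ 4) < zpowers (x ^ 2) ⊔ zpowers (y ^ 2) := by
    refine lt_of_le_of_ne (sup_le_sup_left (zpowers_le.2 (mem_zpowers_iff.2 ⟨2, by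
      rw [zpow_ofNat, ← pow_mul]⟩)) _) fun e => hn.2 ?_
    obtain ⟨g, hg, l, e'⟩ := (mem_sup_zpowers (mem_normalizer_of_conj_mem fun z hz => by
      rwa [show y ^ 4 = (y ^ 2) ^ 2 by rw [← pow_mul], (H.sqc _ z).eq, mul_inv_cancel_right])).1
      (e.ge (mem_sup_right (mem_zpowers _)))
    refine mem_of_odd_zpow H.pg (i := 1 - 2 * l) (by simp [Int.odd_sub]) ?_
    convert hg using 1
    rw [eq_mul_inv_of_mul_eq e'.symm, zpow_sub, zpow_one, zpow_mul, zpow_ofNat, ← pow_mul]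
  have h3 := mul_card_le_of_lt (H.pg.to_subgroup _) h2
  have h4 := mul_card_le_of_lt (H.pg.to_subgroup _) (lt_sup_zpowers hn.1)
  have h5 := mul_card_le_of_lt (H.pg.to_subgroup _) (lt_sup_zpowers H.x_not)
  have h6 := card_le_of_dvd (Phi_le _) (by norm_num) h.dvd
  have h7 := card_le_of_le' h1
  have h8 := card_pos' (zpowers (x ^ 2) ⊔ zpowers (y ^ 4))
  rw [← H.Phi_eq] at h4
  omega

variable (hn : ∀ m : G, m ^ 2 ≠ ⁅x, y⁆)
include hn

theorem key2 (h : ⁅x, y⁆ ∈ zpowers (x ^ 2) ⊔ zpowers (y ^ 2)) :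
    ∃ a, a⁻¹ * (x * y) ∈ Phi 2 (⊤ : Subgroup G) ∧ a ^ 2 = 1 := by
  obtain ⟨i, j, e⟩ := H.mem_sq h
  have e1 := H.mul_sq (x ^ i) (y ^ j)
  rw [← e] at e1
  have e2 : ⁅y ^ j, x ^ i⁆ = ⁅x, y⁆ := (H.cm _ _).resolve_left fun e' =>
    hn _ (by rw [e1, e', mul_one])
  have hi : Odd i := Int.not_even_iff_odd.1 fun ⟨k, hk⟩ => H.ne (by
    rw [← e2, hk, zpow_add, ← pow_two]
    exact commutatorElement_eq_one_iff_commute.2 (H.sqc _ _).symm)
  have hj : Odd j := Int.not_even_iff_odd.1 fun ⟨k, hk⟩ => H.ne (by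
    rw [← e2, hk, zpow_add, ← pow_two]
    exact commutatorElement_eq_one_iff_commute.2 (H.sqc _ _))
  refine ⟨x ^ i * y ^ j, ?_, by rw [e1, e2, ← pow_two, H.sq]⟩
  obtain ⟨i, rfl⟩ := hi
  obtain ⟨j, rfl⟩ := hj
  haveI := Phi_normal (⊤ : Subgroup G)
  have h1 : ∀ (g : G) (k : ℤ), (g ^ (2 * k))⁻¹ ∈ Phi 2 (⊤ : Subgroup G) := fun g k => inv_mem (by
    rw [zpow_mul, zpow_ofNat]; exact zpow_mem (pow_mem_Phi (mem_top g)) k)
  convert mul_mem (h1 y j) (Normal.conj_mem' inferInstance _ (h1 x i) y) using 1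
  group

theorem key3 (h1 : y ^ 2 ∈ zpowers (x ^ 2)) (h2 : x ^ 2 ∈ zpowers (y ^ 2)) : False := by
  obtain ⟨i, e, hi⟩ : ∃ i : ℤ, (x ^ 2) ^ i = y ^ 2 ∧ Odd i := by
    obtain ⟨i, e⟩ := h1
    obtain ⟨j, e'⟩ := h2
    simp only at e e'
    rcases Int.even_or_odd i with hi | hi
    · have : y ^ 2 ∈ (⊥ : Subgroup G) := mem_of_odd_zpow H.pg (i := 1 - j * i)
        (by simp [Int.odd_sub, hi.mul_left j]) (by
          rw [zpow_sub, zpow_one, zpow_mul, e', e, mul_inv_cancel]; exact one_mem _)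
      rw [mem_bot.1 this, one_zpow] at e'
      exact ⟨1, by rw [← e', mem_bot.1 this, zpow_one], odd_one⟩
    · exact ⟨i, e, hi⟩
  have h3 := H.gen' (u := x ^ (-i) * y ^ (0 : ℤ)) (g := y) (H.not_mem (Or.inl hi.neg)) fun e => by
    refine H.y_not (sup_le_sup_left (zpowers_le.2 ?_) _ e)
    simp
  refine hn (x ^ (-i) * y ^ (0 : ℤ) * y) ?_
  rw [H.mul_sq, H.comm_eq h3.symm.gen, ← e]
  group

theorem key4 (ha : a ^ 2 = 1) (ha' : a ∉ Phi 2 ⊤) (hg : g ∉ Phi 2 ⊤ ⊔ zpowers a) :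
    g ^ 2 ∉ zpowers ⁅x, y⁆ := fun e => by
  have := (mem_zpowers_two H.sq e).resolve_right (hn g)
  refine hn (a * g) ?_
  rw [H.mul_sq, ha, this, H.comm_eq (H.gen' ha' hg).symm.gen, one_mul, one_mul]

theorem key5 (ha : x ^ 2 = 1) : ¬ Gen2 (Phi 2 ⊤ ⊔ zpowers x) := fun h => by
  rcases H.key1 h with e | e
  · obtain ⟨i, j, e⟩ := H.mem_sq e
    refine hn (y ^ j) ?_
    rw [e, ← zpow_natCast (x ^ i), ← zpow_mul, mul_comm i, zpow_mul, zpow_natCast, ha, one_zpow,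
      one_mul]
  · refine H.key4 hn ha H.x_not H.y_not ?_
    rw [ha, zpowers_one_eq_bot, mem_bot] at e
    exact e ▸ one_mem _

end C2

end Cfsg.Agent.H3.Bic
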