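import Cfsg.Agent.Lib.H3.Bic1

/-!
# Two-generator `2`-groups with two two-generator maximal subgroups
-/

set_option autoImplicit false
set_option linter.unusedSectionVars false

namespace Cfsg.Agent.H3.Bic

open Subgroup Cfsg.Agent.H9
open scoped commutatorElement

variable {G : Type*} [Group G] {K L N P : Subgroup G} {a b g h m u v x y z : G}

/-- The projection onto `G / Φ(G') γ₃(G)`. -/
abbrev pR (G : Type*) [Group G] : G →* G ⧸ RR G := QuotientGroup.mk' (RR G)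

theorem pR_surj : Function.Surjective (pR G) := QuotientGroup.mk'_surjective _

theorem map_pR_Phi : (Phi 2 ⊤).map (pR G) = Phi 2 ⊤ := by
  rw [map_Phi, map_top_of_surjective _ pR_surj]

theorem map_pR (x : G) : (Phi 2 ⊤ ⊔ zpowers x).map (pR G) = Phi 2 ⊤ ⊔ zpowers (pR G x) := by
  rw [Subgroup.map_sup, map_pR_Phi, MonoidHom.map_zpowers]

theorem pR_mem_Phi : pR G g ∈ Phi 2 ⊤ ↔ g ∈ Phi 2 ⊤ := by
  rw [← map_pR_Phi, mem_map_mk, sup_eq_left.2 RR_le_Phi]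

theorem pR_mem : pR G g ∈ Phi 2 ⊤ ⊔ zpowers (pR G x) ↔ g ∈ Phi 2 ⊤ ⊔ zpowers x := by
  rw [← map_pR, mem_map_mk, sup_eq_left.2 (le_sup_of_le_left RR_le_Phi)]

theorem pR_eq_one : pR G g = 1 ↔ g ∈ RR G := QuotientGroup.eq_one_iff g

theorem c2_quot [Finite G] (hG : IsPGroup 2 G) (h1 : zpowers x ⊔ zpowers y = ⊤)
    (hn : ¬ Meta (⊤ : Subgroup G)) :
    C2 (pR G x) (pR G y) ∧ ∀ m, m ^ 2 ≠ ⁅pR G x, pR G y⁆ := by
  have hc : ⁅x, y⁆ ∈ 𝒟(G) := commutator_mem_commutator trivial trivial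
  have H : C2 (pR G x) (pR G y) := by
    refine ⟨hG.to_quotient _, ?_, fun g => ?_, ?_, fun e => hn (blackburn hG h1 ?_)⟩
    · simpa only [Subgroup.map_sup, MonoidHom.map_zpowers, map_top_of_surjective _ pR_surj] using
        congrArg (map (pR G)) h1
    · obtain ⟨g, rfl⟩ := pR_surj g
      rw [← commutatorElement_eq_one_iff_commute, ← map_commutatorElement,
        ← map_commutatorElement, pR_eq_one]
      exact mem_sup_right (commutator_mem_commutator hc trivial)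
    · rw [← map_commutatorElement, ← map_pow, pR_eq_one]
      exact mem_sup_left (pow_mem_Phi hc)
    · rw [← map_commutatorElement, pR_eq_one] at e
      exact mem_sup_right e
  refine ⟨H, fun m hm => hn ?_⟩
  obtain ⟨u, hu, hu'⟩ := H.exists_root m
  obtain ⟨u, rfl⟩ := pR_surj u
  obtain ⟨g, hg⟩ : ∃ g, g ∉ Phi 2 ⊤ ⊔ zpowers u := by
    by_contra! e
    exact H.not_both (pR_mem.2 (e x)) (pR_mem.2 (e y))
  refine blackburn hG (gen_of (hG.to_subgroup ⊤) (Gen2.dvd ⟨x, y, h1⟩) trivial trivial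
    (mt pR_mem_Phi.2 hu) hg) (mem_map_mk.1 ?_)
  rw [MonoidHom.map_zpowers, map_commutatorElement]
  exact zpowers_le.2 (hm ▸ hu') (H.der (commutator_mem_commutator trivial trivial))

theorem sup_zpowers_congr (h : a⁻¹ * b ∈ K) : K ⊔ zpowers a = K ⊔ zpowers b :=
  le_antisymm (sup_le le_sup_left (zpowers_le.2 (by
    simpa using mul_mem (mem_sup_right (mem_zpowers b)) (inv_mem (mem_sup_left h)))))
    (sup_le le_sup_left (zpowers_le.2 (by
      simpa using mul_mem (mem_sup_right (mem_zpowers a)) (mem_sup_left h))))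

theorem b2 [Finite G] (hG : IsPGroup 2 G) (h1 : zpowers x ⊔ zpowers y = ⊤)
    (hn : ¬ Meta (⊤ : Subgroup G)) (hx : Gen2 (Phi 2 ⊤ ⊔ zpowers x))
    (hy : Gen2 (Phi 2 ⊤ ⊔ zpowers y)) : ∃ a, a⁻¹ * (x * y) ∈ Phi 2 (⊤ : Subgroup G) ∧
      a ^ 2 ∈ RR G ∧ (∀ g ∉ Phi 2 ⊤ ⊔ zpowers (x * y), g ^ 2 ∉ 𝒟(G)) ∧
      ¬ Gen2 (Phi 2 ⊤ ⊔ zpowers (x * y)) := by
  obtain ⟨H, hs⟩ := c2_quot hG h1 hn
  obtain ⟨a, ha, ha2⟩ := H.key2 hs (by
    rcases H.key1 (map_pR x ▸ hx.map _) with e | e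
    · exact e
    rcases H.symm.key1 (map_pR y ▸ hy.map _) with e' | e'
    · rwa [sup_comm, H.comm_symm] at e'
    · exact (H.key3 hs e e').elim)
  obtain ⟨a, rfl⟩ := pR_surj a
  have ha' : pR G a ∉ Phi 2 ⊤ := fun e => H.not_mem (i := 1) (j := 1) (Or.inl odd_one) (by
    simpa using mul_mem e ha)
  have hy' : pR G y ∉ Phi 2 ⊤ ⊔ zpowers (pR G a) := fun e => H.not_both (by
    simpa using mul_mem (mul_mem (mem_sup_right (mem_zpowers _)) (mem_sup_left ha)) (inv_mem e)) e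
  rw [← map_mul, ← map_inv, ← map_mul, pR_mem_Phi] at ha
  refine ⟨a, ha, pR_eq_one.1 (map_pow (pR G) a 2 ▸ ha2), fun g hg e => ?_, fun e => ?_⟩
  · refine H.key4 hs ha2 ha' (g := pR G g) (by rwa [pR_mem, sup_zpowers_congr ha]) (H.der ?_)
    rw [← map_top_of_surjective _ pR_surj, ← map_commutator, ← map_pow]
    exact mem_map_of_mem _ e
  · have H' := H.gen' ha' hy'
    refine H'.key5 (H.comm_eq H'.gen ▸ hs) ha2 ?_
    rw [← map_pR, sup_zpowers_congr ha]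
    exact e.map _

theorem Gen2.of_map {H : Type*} [Group H] {f : G →* H} (hf : Function.Injective f)
    (h : Gen2 (N.map f)) : Gen2 N := by
  obtain ⟨u, v, h⟩ := h
  obtain ⟨u, -, rfl⟩ := h.le (mem_sup_left (mem_zpowers u))
  obtain ⟨v, -, rfl⟩ := h.le (mem_sup_right (mem_zpowers v))
  exact ⟨u, v, map_injective hf (by
    rw [Subgroup.map_sup, MonoidHom.map_zpowers, MonoidHom.map_zpowers, h])⟩

theorem map_top_subtype (P : Subgroup G) : (⊤ : Subgroup P).map P.subtype = P := by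
  rw [← MonoidHom.range_eq_map, range_subtype]

theorem b2' [Finite P] (hP : IsPGroup 2 P) (h1 : zpowers x ⊔ zpowers y = P)
    (hn : ¬ Meta P) (hx : Gen2 (Phi 2 P ⊔ zpowers x))
    (hy : Gen2 (Phi 2 P ⊔ zpowers y)) : ∃ a ∈ P, a⁻¹ * (x * y) ∈ Phi 2 P ∧
      a ^ 2 ∈ ⁅P, P⁆ ∧ (∀ g ∈ P, g ∉ Phi 2 P ⊔ zpowers (x * y) → g ^ 2 ∉ ⁅P, P⁆) ∧
      ¬ Gen2 (Phi 2 P ⊔ zpowers (x * y)) := by
  have hi := P.subtype_injective
  have e1 : (Phi 2 ⊤).map P.subtype = Phi 2 P := by rw [map_Phi, map_top_subtype]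
  have e2 : ∀ g : P, (Phi 2 ⊤ ⊔ zpowers g).map P.subtype = Phi 2 P ⊔ zpowers (g : G) :=
    fun g => by rw [Subgroup.map_sup, e1, MonoidHom.map_zpowers]; rfl
  have e3 : 𝒟(P).map P.subtype = ⁅P, P⁆ := by rw [map_commutator, map_top_subtype]
  lift x to P using h1.le (mem_sup_left (mem_zpowers x))
  lift y to P using h1.le (mem_sup_right (mem_zpowers y))
  obtain ⟨a, k1, k2, k3, k4⟩ := b2 hP (x := x) (y := y) (map_injective hi (by
    rw [Subgroup.map_sup, MonoidHom.map_zpowers, MonoidHom.map_zpowers, map_top_subtype]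
    exact h1)) (fun e => hn (map_top_subtype P ▸ e.map P.subtype))
    (.of_map hi (e2 x ▸ hx)) (.of_map hi (e2 y ▸ hy))
  refine ⟨a, a.2, e1 ▸ mem_map_of_mem _ k1, e3 ▸ mem_map_of_mem _ (RR_le k2), fun g hg h2 h3 => ?_,
    fun e => k4 (.of_map hi (e2 (x * y) ▸ e))⟩
  refine k3 ⟨g, hg⟩ (fun e => h2 ?_) ((mem_map_iff_mem hi).1 (e3 ▸ h3))
  exact (e2 (x * y)).le (mem_map_of_mem _ e)

end Cfsg.Agent.H3.Bic
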