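import Cfsg.Agent.Lib.H3.Bic2

/-!
# Bicyclic `2`-groups with a noncyclic derived subgroup
-/

set_option autoImplicit false
set_option linter.unusedSectionVars false

namespace Cfsg.Agent.H3.Bic

open Subgroup Cfsg.Agent.H9
open scoped commutatorElement

variable {G : Type*} [Group G] {A K L M N P : Subgroup G} {a b c g h m u v x y z : G}

/-- `P = ⟨x⟩ ⟨y⟩`. -/
structure Bi (x y : G) (P : Subgroup G) : Prop where
  hx : x ∈ P
  hy : y ∈ P
  eq : ∀ g ∈ P, ∃ i j : ℤ, g = x ^ i * y ^ j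

theorem Bi.symm (H : Bi x y P) : Bi y x P := ⟨H.hy, H.hx, fun g hg => by
  obtain ⟨i, j, e⟩ := H.eq _ (inv_mem hg)
  exact ⟨-j, -i, by rw [← inv_inv g, e]; group⟩⟩

theorem Bi.gen (H : Bi x y P) : zpowers x ⊔ zpowers y = P :=
  le_antisymm (sup_le (zpowers_le.2 H.hx) (zpowers_le.2 H.hy)) fun g hg => by
    obtain ⟨i, j, rfl⟩ := H.eq g hg
    exact mul_mem_sup (zpow_mem_zpowers x i) (zpow_mem_zpowers y j)

theorem Bi.max (H : Bi x y P) (hx : x ∉ Phi 2 P ⊔ zpowers y) :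
    Bi (x ^ 2) y (Phi 2 P ⊔ zpowers y) := by
  refine ⟨mem_sup_left (pow_mem_Phi H.hx), mem_sup_right (mem_zpowers y), fun g hg => ?_⟩
  obtain ⟨i, j, rfl⟩ := H.eq g (sup_le (Phi_le P) (zpowers_le.2 H.hy) hg)
  obtain ⟨k, rfl⟩ := (zpow_mem_iff_dvd (p := 2) hx (mem_sup_left (pow_mem_Phi H.hx))).1
    ((mul_mem_cancel_right (mem_sup_right (zpow_mem_zpowers y j))).1 hg)
  exact ⟨k, j, by rw [zpow_mul, zpow_natCast]⟩

theorem eq_zpowers_of_le [Finite P] (hP : IsPGroup 2 P) (hu : u ∈ P)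
    (h : P ≤ Phi 2 P ⊔ zpowers u) : zpowers u = P :=
  eq_of_le_sup_Phi hP (zpowers_le.2 hu) (sup_comm (Phi 2 P) _ ▸ h)

theorem not_both [Finite P] (hP : IsPGroup 2 P) (h1 : zpowers x ⊔ zpowers y = P) (hn : ¬ Meta P)
    (hu : u ∈ P) (hx : x ∈ Phi 2 P ⊔ zpowers u) (hy : y ∈ Phi 2 P ⊔ zpowers u) : False := by
  have := eq_zpowers_of_le hP hu (h1.ge.trans (sup_le (zpowers_le.2 hx) (zpowers_le.2 hy)))
  exact hn ⟨u, u, this ▸ le_normalizer, by rw [sup_idem, this]⟩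

theorem Bi.x_not [Finite P] (H : Bi x y P) (hP : IsPGroup 2 P) (hn : ¬ Meta P) :
    x ∉ Phi 2 P ⊔ zpowers y := fun e =>
  not_both hP H.gen hn H.hy e (mem_sup_right (mem_zpowers y))

theorem exists_sq_of_mem_Phi (hc : ∀ a ∈ P, ∀ b ∈ P, a * b = b * a) (hv : v ∈ Phi 2 P) :
    ∃ w ∈ P, w ^ 2 = v := by
  let X : Subgroup G :=
    { carrier := {v | ∃ w ∈ P, w ^ 2 = v}
      one_mem' := ⟨1, one_mem _, one_pow 2⟩
      mul_mem' := by
        rintro _ _ ⟨w, hw, rfl⟩ ⟨w', hw', rfl⟩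
        exact ⟨w * w', mul_mem hw hw', Commute.mul_pow (hc w hw w' hw') 2⟩
      inv_mem' := by
        rintro _ ⟨w, hw, rfl⟩
        exact ⟨w⁻¹, inv_mem hw, inv_pow w 2⟩ }
  exact (Phi_le_iff.2 ⟨fun x hx => ⟨x, hx, rfl⟩, fun x hx y hy =>
    ⟨1, one_mem _, by rw [commutatorElement_eq_one_iff_mul_comm.2 (hc x hx y hy), one_pow]⟩⟩ :
    Phi 2 P ≤ X) hv

theorem normal_of_le (h : 𝒟(G) ≤ N) : N.Normal :=
  normalizer_eq_top_iff.1 (top_le_iff.1 (le_normalizer_of_commutator_le le_top h))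

theorem normal_max (y : G) : (Phi 2 ⊤ ⊔ zpowers y).Normal :=
  normal_of_le (le_sup_of_le_left (commutator_le_Phi _))

theorem even_pow_mem (hg : g ∈ P) {i : ℤ} (hi : Even i) : g ^ i ∈ Phi 2 P := by
  obtain ⟨k, rfl⟩ := hi
  rw [zpow_add, ← pow_two]
  exact pow_mem_Phi (zpow_mem hg k)

theorem Bi.meta [Finite G] (H : Bi x y ⊤) (hG : IsPGroup 2 G) (hn : ¬ Meta (⊤ : Subgroup G)) :
    Meta (Phi 2 ⊤ ⊔ zpowers y) := by
  by_contra hm
  have H1 := H.max (H.x_not (hG.to_subgroup _) hn)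
  have hM := hG.to_subgroup (Phi 2 ⊤ ⊔ zpowers y)
  obtain ⟨a, ha, k1, k2, k3, -⟩ := b2' hM H1.gen hm
    ⟨_, _, (H1.symm.max (H1.symm.x_not hM hm)).gen⟩ ⟨_, _, (H1.max (H1.x_not hM hm)).gen⟩
  have hc : ⁅y⁻¹, x⁆ ∈ Phi 2 ⊤ := commutator_mem_Phi trivial trivial
  obtain ⟨i, j, e⟩ := H1.eq _ (mem_sup_left hc)
  have hj : Even j := even_iff_two_dvd.2 ((zpow_mem_iff_dvd (p := 2)
    (fun e => H.symm.x_not (hG.to_subgroup _) hn (mem_sup_left e)) (pow_mem_Phi trivial)).1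
    ((mul_mem_cancel_left (zpow_mem (pow_mem_Phi (mem_top x)) i)).1 (e ▸ hc)))
  haveI := normal_max y
  generalize hM' : Phi 2 ⊤ ⊔ zpowers y = M at *
  haveI := Phi_normal M
  rcases Int.even_or_odd i with hi | ⟨i, rfl⟩
  · obtain ⟨H2, hs⟩ := c2_quot hG H.gen hn
    obtain ⟨w, -, hw⟩ := exists_sq_of_mem_Phi (P := M.map (pR G)) (v := pR G ⁅y⁻¹, x⁆) (by
      rw [← hM', map_pR]
      exact fun g hg k hk => mul_comm_of_le_sup_zpowers (mem_sup_right (mem_zpowers _))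
        (fun k hk h _ => (H2.Phi_cen hk h).eq) le_rfl hg hk) (by
      rw [← map_Phi, e]
      exact mem_map_of_mem _ (mul_mem (even_pow_mem H1.hx hi) (even_pow_mem H1.hy hj)))
    refine hs w (hw.trans ((map_commutatorElement _ _ _).trans (H2.comm_eq ?_)))
    rw [map_inv, zpowers_inv, H2.symm.gen]
  have k4 : y⁻¹ * (x⁻¹ * a * x) ∈ Phi 2 M := by
    have k5 := mul_mem (mul_mem k1 (commutator_mem_Phi (inv_mem H1.hy) (inv_mem H1.hx)))
      (mul_mem (even_pow_mem H1.hx (even_two_mul i)) (even_pow_mem H1.hy hj))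
    have k6 : x * y * x⁻¹ = y * ((x ^ 2) ^ (2 * i + 1) * y ^ j) := by
      rw [← e, commutatorElement_def]; group
    convert inv_mem (Normal.conj_mem' inferInstance _ k5 x) using 1
    calc y⁻¹ * (x⁻¹ * a * x) = (x⁻¹ * (a⁻¹ * (x * y * x⁻¹)) * x)⁻¹ := by group
      _ = _ := by rw [k6, commutatorElement_def]; group
  refine k3 (x⁻¹ * a * x) (Normal.conj_mem' inferInstance _ ha x) (fun e => ?_) (by
    convert Normal.conj_mem' inferInstance _ k2 x using 1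
    simp only [pow_two]; group)
  have k7 : y ∈ Phi 2 M ⊔ zpowers (x ^ 2 * y) := by
    convert mul_mem e (inv_mem (mem_sup_left k4)) using 1
    group
  exact not_both hM H1.gen hm (mul_mem H1.hx H1.hy)
    ((mul_mem_cancel_right k7).1 (mem_sup_right (mem_zpowers _))) k7

theorem cent_of_cyclic [K.Normal] (hK : K ≤ zpowers u) (hg : g ∈ 𝒟(G)) (hv : v ∈ K) :
    v * g = g * v := by
  obtain ⟨n, rfl⟩ := (le_zpowers_iff _ _).1 hK
  obtain ⟨k, rfl⟩ := hv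
  refine (Commute.zpow_left (mem_centralizer_singleton_iff.1
    ((commutator_le.2 fun g _ h _ => mem_centralizer_singleton_iff.2 ?_ :
      𝒟(G) ≤ centralizer {u ^ n}) hg)).symm k).eq
  generalize u ^ n = w at *
  obtain ⟨i, hi⟩ := Normal.conj_mem' inferInstance _ (mem_zpowers w) g
  obtain ⟨j, hj⟩ := Normal.conj_mem' inferInstance _ (mem_zpowers w) h
  simp only at hi hj
  have e : ∀ {g h : G} {i j : ℤ}, w ^ i = g⁻¹ * w * g → w ^ j = h⁻¹ * w * h →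
      h⁻¹ * g⁻¹ * w * g * h = w ^ (j * i) := fun {g h i j} hi hj => by
    calc _ = h⁻¹ * (g⁻¹ * w * g) * h⁻¹⁻¹ := by group
      _ = _ := by rw [← hi, ← conj_zpow, inv_inv, ← hj, zpow_mul]
  have e' := (e hi hj).trans (mul_comm j i ▸ (e hj hi).symm)
  calc ⁅g, h⁆ * w = g * h * (g⁻¹ * h⁻¹ * w * h * g) * g⁻¹ * h⁻¹ := by
        rw [commutatorElement_def]; group
    _ = _ := by rw [← e', commutatorElement_def]; group

theorem der_le [Finite G] [K.Normal] (h : zpowers x ⊔ zpowers y = ⊤) (h1 : ⁅x, ⁅x, y⁆⁆ ∈ K)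
    (h2 : ⁅y, ⁅x, y⁆⁆ ∈ K) : 𝒟(G) ≤ K ⊔ zpowers ⁅x, y⁆ := by
  refine commutator_le_of_sup_zpowers ?_ h (mem_sup_right (mem_zpowers _))
  generalize ⁅x, y⁆ = c at *
  have k : ∀ g, ⁅g, c⁆ ∈ K → g ∈ normalizer ((K ⊔ zpowers c : Subgroup G) : Set G) :=
    fun g hg => mem_normalizer_of_conj_mem fun v hv => by
      refine (sup_le (fun v hv => mem_sup_left (Normal.conj_mem inferInstance v hv g))
        (zpowers_le.2 ?_) : K ⊔ zpowers c ≤ (K ⊔ zpowers c).comap (MulAut.conj g).toMonoidHom) hv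
      simpa [commutatorElement_def] using mul_mem_sup hg (mem_zpowers c)
  rw [← h]
  exact sup_le (zpowers_le.2 (k x h1)) (zpowers_le.2 (k y h2))

theorem relIndex_eq_four [Finite P] (hP : IsPGroup 2 P) (h : (Phi 2 P).relIndex P ∣ 4)
    (hc : ∀ u, zpowers u ≠ P) : (Phi 2 P).relIndex P = 4 := by
  obtain ⟨u, hu, hu'⟩ := SetLike.exists_of_lt (Phi_lt hP fun e => hc 1 (zpowers_one_eq_bot.trans e.symm))
  obtain ⟨v, hv, hv'⟩ := SetLike.not_le_iff_exists.1 fun e => hc u (eq_zpowers_of_le hP hu e)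
  have h1 : Phi 2 P ⊔ zpowers u ≤ P := sup_le (Phi_le P) (zpowers_le.2 hu)
  haveI := finite_of_le h1
  have h3 := mul_card_le_of_lt (hP.to_le h1) (lt_sup_zpowers hu')
  have h4 := mul_card_le_of_lt hP (lt_of_le_of_ne h1 fun e => hv' (e.ge hv))
  have h5 := relIndex_mul_relIndex ⊥ _ _ bot_le (Phi_le (p := 2) P)
  rw [relIndex_bot_left, relIndex_bot_left] at h5
  haveI := finite_of_le (Phi_le (p := 2) P)
  have h6 := card_pos' (Phi 2 P)
  have h7 := Nat.le_of_dvd (by norm_num) h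
  nlinarith

end Cfsg.Agent.H3.Bic
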