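import Cfsg.Agent.Lib.H3.Bic3

/-!
# The structure of a bicyclic `2`-group with a noncyclic derived subgroup
-/

set_option autoImplicit false
set_option linter.unusedSectionVars false

namespace Cfsg.Agent.H3.Bic

open Subgroup Cfsg.Agent.H9
open scoped commutatorElement

variable {G : Type*} [Group G] {A K L M N P : Subgroup G} {a b c g h i m u v x y z : G}

/-- The elements centralizing `A / K`. -/
def cq (A K : Subgroup G) [K.Normal] : Subgroup G :=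
  (centralizer (A.map (QuotientGroup.mk' K) : Set (G ⧸ K))).comap (QuotientGroup.mk' K)

theorem mem_cq [K.Normal] : g ∈ cq A K ↔ ∀ u ∈ A, ⁅u, g⁆ ∈ K := by
  simp only [cq, mem_comap, mem_centralizer_iff, SetLike.mem_coe, mem_map, forall_exists_index,
    and_imp, forall_apply_eq_imp_iff₂, ← commutatorElement_eq_one_iff_mul_comm,
    ← map_commutatorElement]
  simp only [QuotientGroup.mk'_apply, QuotientGroup.eq_one_iff]

theorem comm_mem_symm (h : ⁅u, g⁆ ∈ K) : ⁅g, u⁆ ∈ K := by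
  rw [← commutatorElement_inv]; exact inv_mem h

theorem mem_cq_zpowers [K.Normal] : g ∈ cq (zpowers a) K ↔ ⁅a, g⁆ ∈ K := by
  refine ⟨fun h => mem_cq.1 h a (mem_zpowers a), fun h => mem_cq.2 fun u hu => comm_mem_symm ?_⟩
  refine mem_cq.1 ((zpowers_le.2 (mem_cq.2 ?_) : zpowers a ≤ cq (zpowers g) K) hu) g (mem_zpowers g)
  rintro _ ⟨k, rfl⟩
  rw [← QuotientGroup.eq_one_iff, ← QuotientGroup.mk'_apply, map_commutatorElement,
    commutatorElement_eq_one_iff_commute] at h ⊢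
  rw [map_zpow]
  exact h.symm.zpow_left k

instance PhiD_normal : (Phi 2 𝒟(G)).Normal := Phi_normal _

instance PhiT_normal : (Phi 2 (⊤ : Subgroup G)).Normal := Phi_normal _

/-- Two-generator `2`-groups whose derived subgroup is abelian of rank two. -/
structure BS0 (G : Type*) [Group G] : Prop where
  pg : IsPGroup 2 G
  gen2 : Gen2 (⊤ : Subgroup G)
  ab : ∀ u ∈ 𝒟(G), ∀ v ∈ 𝒟(G), u * v = v * u
  gA : Gen2 𝒟(G)
  nc : ∀ u, zpowers u ≠ 𝒟(G)

theorem not_meta (nc : ∀ u, zpowers u ≠ 𝒟(G)) : ¬ Meta (⊤ : Subgroup G) := fun ⟨_, _, h⟩ =>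
  let ⟨_, e⟩ := (le_zpowers_iff _ _).1 h.commutator_le
  nc _ e.symm

theorem comm_mem (g h : G) : ⁅g, h⁆ ∈ 𝒟(G) := commutator_mem_commutator trivial trivial

theorem comm_mem_RR (hu : u ∈ 𝒟(G)) (g : G) : ⁅u, g⁆ ∈ RR G :=
  mem_sup_right (commutator_mem_commutator hu trivial)

theorem mul_inv_mem_of_two [Finite L] (hK : K ≤ L) (h : Nat.card L ≤ 2 * Nat.card K) (hu : u ∈ L)
    (hv : v ∈ L) (hu' : u ∉ K) (hv' : v ∉ K) : u⁻¹ * v ∈ K := by
  have h1 := relIndex_mul_relIndex ⊥ _ _ bot_le hK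
  rw [relIndex_bot_left, relIndex_bot_left] at h1
  haveI := finite_of_le hK
  have h2 := card_pos' K
  have h3 : K.relIndex L ≠ 1 := fun e => hu' (relIndex_eq_one.1 e hu)
  have h4 := relIndex_pos (H := K) (K := L)
  have h5 : K.relIndex L = 2 := by
    by_contra h5
    have : 3 ≤ K.relIndex L := by omega
    nlinarith
  exact (mul_mem_iff_of_index_two (H := K.subgroupOf L) h5 (a := ⟨u, hu⟩⁻¹) (b := ⟨v, hv⟩)).2
    (by simp [mem_subgroupOf, hu', hv'])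

namespace BS0

variable [Finite G] (H : BS0 G)
include H

theorem sub (K : Subgroup G) : IsPGroup 2 K := H.pg.to_subgroup K

theorem idx : (Phi 2 𝒟(G)).relIndex 𝒟(G) = 4 := relIndex_eq_four (H.sub _) H.gA.dvd H.nc

theorem gen (hu : u ∉ Phi 2 ⊤) (hg : g ∉ Phi 2 ⊤ ⊔ zpowers u) : zpowers u ⊔ zpowers g = ⊤ :=
  gen_of (H.sub _) H.gen2.dvd trivial trivial hu hg

theorem der_le_RR (h : zpowers x ⊔ zpowers y = ⊤) : 𝒟(G) ≤ RR G ⊔ zpowers ⁅x, y⁆ :=
  der_le h (comm_mem_symm (comm_mem_RR (comm_mem _ _) _))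
    (comm_mem_symm (comm_mem_RR (comm_mem _ _) _))

theorem c_not (h : zpowers x ⊔ zpowers y = ⊤) : ⁅x, y⁆ ∉ RR G := fun e =>
  not_meta H.nc (blackburn H.pg h (mem_sup_right e))

theorem RR_not : ¬ RR G ≤ Phi 2 𝒟(G) := fun e =>
  let ⟨_, _, h⟩ := H.gen2
  H.nc _ (eq_zpowers_of_le (H.sub _) (comm_mem _ _) ((H.der_le_RR h).trans (sup_le_sup_right e _)))

theorem cards : Nat.card (RR G) ≤ 2 * Nat.card (Phi 2 𝒟(G)) ∧
    Nat.card ↥𝒟(G) ≤ 2 * Nat.card (RR G) := by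
  obtain ⟨x, y, h⟩ := H.gen2
  have h1 := mul_card_le_of_lt (H.sub (RR G)) (lt_of_le_not_ge le_sup_left H.RR_not)
  have h2 := mul_card_le_of_lt (H.sub _) (lt_of_le_not_ge RR_le fun e => H.c_not h (e (comm_mem _ _)))
  have h3 := card_le_of_dvd (Phi_le _) (by norm_num) H.gA.dvd
  omega

theorem comm_RR (hu : u ∈ RR G) (g : G) : ⁅u, g⁆ ∈ Phi 2 𝒟(G) := by
  by_cases h : u ∈ Phi 2 𝒟(G)
  · simpa only [commutatorElement_def, mul_assoc] using
      mul_mem h (Normal.conj_mem inferInstance _ (inv_mem h) g)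
  have := mul_inv_mem_of_two le_sup_left H.cards.1 (Normal.conj_mem inferInstance _ hu g) hu
    (fun e => h (by simpa [mul_assoc] using Normal.conj_mem' inferInstance _ e g)) h
  convert Normal.conj_mem inferInstance _ this u using 1
  rw [commutatorElement_def]; group

theorem Phi_le_cq : Phi 2 ⊤ ≤ cq 𝒟(G) (Phi 2 𝒟(G)) := by
  refine Phi_le_iff.2 ⟨fun g _ => mem_cq.2 fun u hu => ?_, fun g _ h _ => mem_cq.2 fun u hu => ?_⟩
  · have h1 := comm_mem_RR hu g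
    convert mul_mem (pow_mem_Phi (RR_le h1)) (H.comm_RR (inv_mem h1) g) using 1
    simp only [commutatorElement_def, pow_two]; group
  · rw [commutatorElement_eq_one_iff_mul_comm.2 (H.ab u hu _ (comm_mem g h))]
    exact one_mem _

theorem cq_eq (ha : a ∉ Phi 2 ⊤) (ha2 : a ^ 2 ∈ RR G) :
    cq 𝒟(G) (Phi 2 𝒟(G)) = Phi 2 ⊤ ⊔ zpowers a := by
  have k : ∀ b, zpowers a ⊔ zpowers b = ⊤ → a ∈ cq 𝒟(G) (Phi 2 𝒟(G)) := fun b hb => by
    refine mem_cq.2 fun u hu => comm_mem_symm (mem_cq_zpowers.1 (((H.der_le_RR hb).trans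
      (sup_le (fun v hv => mem_cq_zpowers.2 (comm_mem_symm (H.comm_RR hv a)))
        (zpowers_le.2 (mem_cq_zpowers.2 ?_)))) hu))
    convert mul_mem (H.comm_RR ha2 b) (inv_mem (pow_mem_Phi (comm_mem a b))) using 1
    simp only [commutatorElement_def, pow_two]; group
  have k1 : ∀ b, b ∉ Phi 2 ⊤ ⊔ zpowers a → b ∉ cq 𝒟(G) (Phi 2 𝒟(G)) := fun b hb hb' => by
    have := (H.gen ha hb).ge.trans (sup_le (zpowers_le.2 (k b (H.gen ha hb))) (zpowers_le.2 hb'))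
    exact H.RR_not (sup_le le_rfl (commutator_le.2 fun u hu g hg => mem_cq.1 (this hg) u hu))
  refine le_antisymm (fun b hb => by_contra fun e => k1 b e hb) (sup_le H.Phi_le_cq ?_)
  obtain ⟨x, y, h⟩ := H.gen2
  by_cases hx : x ∈ Phi 2 ⊤ ⊔ zpowers a
  · exact zpowers_le.2 (k y (H.gen ha (not_both (H.sub _) h (not_meta H.nc) trivial hx)))
  · exact zpowers_le.2 (k x (H.gen ha hx))

end BS0

/-- The maximal subgroup centralizing `G' / Φ(G')`. -/
abbrev MM (G : Type*) [Group G] : Subgroup G := cq 𝒟(G) (Phi 2 𝒟(G))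

/-- The structure of a bicyclic `2`-group with noncyclic derived subgroup. -/
structure BS (a b y : G) : Prop extends BS0 G where
  aP : a ∉ Phi 2 ⊤
  a2 : a ^ 2 ∈ RR G
  bM : b ∉ MM G
  sq : ∀ g ∉ MM G, g ^ 2 ∉ 𝒟(G)
  cyc : ∀ u ∈ 𝒟(G), ⁅u, b⁆ ∈ zpowers y
  yA : y ∈ 𝒟(G)
  yn : (zpowers y).Normal
  met : Meta (Phi 2 ⊤ ⊔ zpowers b)

theorem Bi.der_cyc [Finite G] (H : Bi x y ⊤) (hG : IsPGroup 2 G) (hn : ¬ Meta (⊤ : Subgroup G)) :
    ∃ z ∈ 𝒟(G), (zpowers z).Normal ∧ ∀ u ∈ 𝒟(G), ⁅u, y⁆ ∈ zpowers z ∧ z * u = u * z := by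
  obtain ⟨u, v, h⟩ := H.meta hG hn
  obtain ⟨n, e⟩ := (le_zpowers_iff _ _).1 h.commutator_le
  haveI := normal_max y
  haveI : (zpowers (u ^ n)).Normal := e ▸ inferInstance
  exact ⟨u ^ n, commutator_mono le_top le_top (e.ge (mem_zpowers _)), inferInstance, fun w hw =>
    ⟨e.le (commutator_mem_commutator (mem_sup_left (commutator_le_Phi _ hw))
      (mem_sup_right (mem_zpowers y))), cent_of_cyclic le_rfl hw (mem_zpowers _)⟩⟩

theorem Bi.bs [Finite G] (H : Bi x y ⊤) (hG : IsPGroup 2 G) (nc : ∀ u, zpowers u ≠ 𝒟(G)) :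
    ∃ a z, BS a y z := by
  have hn := not_meta nc
  have hT := hG.to_subgroup ⊤
  obtain ⟨z, hz, hz1, hz2⟩ := H.der_cyc hG hn
  obtain ⟨w, hw, hw1, hw2⟩ := H.symm.der_cyc hG hn
  have H0 : BS0 G := by
    refine ⟨hG, ⟨x, y, H.gen⟩, fun u hu v hv => ?_, ((H.meta hG hn).of_le
      (le_sup_of_le_left (commutator_le_Phi _))).gen2, nc⟩
    refine mul_comm_of_le_sup_zpowers (K := zpowers z ⊔ zpowers w) (comm_mem x y)
      (fun k hk h hh => mem_centralizer_singleton_iff.1 ((sup_le (zpowers_le.2 ?_)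
        (zpowers_le.2 ?_) : _ ≤ centralizer {h}) hk))
      (der_le H.gen (comm_mem_symm (mem_sup_right (hw2 _ (comm_mem x y)).1))
        (comm_mem_symm (mem_sup_left (hz2 _ (comm_mem x y)).1))) hu hv
    exacts [mem_centralizer_singleton_iff.2 (hz2 h hh).2,
      mem_centralizer_singleton_iff.2 (hw2 h hh).2]
  obtain ⟨a, k1, k2, k3, -⟩ := b2 hG H.gen hn (H.symm.meta hG hn).gen2 (H.meta hG hn).gen2
  have hy : y ∉ Phi 2 ⊤ ⊔ zpowers (x * y) := fun e => not_both hT H.gen hn trivial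
    ((mul_mem_cancel_right e).1 (mem_sup_right (mem_zpowers _))) e
  have ha : a ∉ Phi 2 ⊤ := fun e => H.x_not hT hn (by
    simpa using mul_mem (mem_sup_left (mul_mem e k1)) (inv_mem (mem_sup_right (mem_zpowers y))))
  have e : MM G = _ := (H0.cq_eq ha k2).trans (sup_zpowers_congr k1)
  exact ⟨a, z, H0, ha, k2, e ▸ hy, e ▸ k3, fun u hu => (hz2 u hu).1, hz, hz1,
    H.meta hG hn⟩

end Cfsg.Agent.H3.Bic
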