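import Cfsg.Agent.Lib.H3.Bic4

/-!
# Involutions and inverted elements of a bicyclic `2`-group
-/

set_option autoImplicit false
set_option linter.unusedSectionVars false

namespace Cfsg.Agent.H3.Bic

open Subgroup Cfsg.Agent.H9
open scoped commutatorElement

variable {G : Type*} [Group G] {A K L M N P : Subgroup G} {a b c d e g h i m u v w x y z : G}

theorem mem_omega (hc : ∀ a ∈ P, ∀ b ∈ P, a * b = b * a) :
    v ∈ omegaOne 2 P ↔ v ∈ P ∧ v ^ 2 = 1 := by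
  refine ⟨fun h => ?_, fun h => mem_omegaOne h.1 h.2⟩
  let X : Subgroup G :=
    { carrier := {v | v ∈ P ∧ v ^ 2 = 1}
      one_mem' := ⟨one_mem _, one_pow 2⟩
      mul_mem' := fun {a b} ha hb => ⟨mul_mem ha.1 hb.1, by
        rw [Commute.mul_pow (hc a ha.1 b hb.1), ha.2, hb.2, mul_one]⟩
      inv_mem' := fun {a} ha => ⟨inv_mem ha.1, by rw [inv_pow, ha.2, inv_one]⟩ }
  exact (omegaOne_le_iff.2 fun x hx h => ⟨hx, h⟩ : omegaOne 2 P ≤ X) h

theorem card_omega [Finite P] (hc : ∀ a ∈ P, ∀ b ∈ P, a * b = b * a) :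
    Nat.card (omegaOne 2 P) = (Phi 2 P).relIndex P := by
  letI : CommGroup P := { (inferInstance : Group P) with
    mul_comm := fun a b => Subtype.ext (hc a a.2 b b.2) }
  have e1 : (powMonoidHom 2 : P →* P).ker = (omegaOne 2 P).subgroupOf P := by
    ext x
    rw [mem_subgroupOf, mem_omega hc, MonoidHom.mem_ker, Subtype.ext_iff]
    simp
  have e2 : (powMonoidHom 2 : P →* P).range = (Phi 2 P).subgroupOf P := by
    ext x
    refine ⟨?_, fun h => ?_⟩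
    · rintro ⟨y, rfl⟩
      exact pow_mem_Phi y.2
    · obtain ⟨w, hw, e⟩ := exists_sq_of_mem_Phi hc h
      exact ⟨⟨w, hw⟩, Subtype.ext e⟩
  have h1 := (powMonoidHom 2 : P →* P).ker.card_mul_index
  have h2 := (powMonoidHom 2 : P →* P).range.card_mul_index
  rw [index_ker, ← h2, mul_comm, e1, e2,
    Nat.card_congr (subgroupOfEquivOfLe (omegaOne_le P)).toEquiv] at h1
  exact Nat.eq_of_mul_eq_mul_left Nat.card_pos h1

theorem comm_mem_Phi_zpowers [Finite G] (hG : IsPGroup 2 G) [(zpowers d).Normal]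
    (hx : x ∈ zpowers d) (g : G) : ⁅x, g⁆ ∈ Phi 2 (zpowers d) := by
  haveI := Phi_normal (zpowers d)
  refine comm_mem_symm (commutator_mem_of_relIndex_prime (p := 2) (hG.to_subgroup ⊤) le_top
    (normalizer_eq_top _).ge (normalizer_eq_top _).ge (Phi_le _) ?_ trivial hx)
  have := relIndex_sup_zpowers_dvd (le_normalizer_Phi (p := 2) _ (mem_zpowers d))
    (pow_mem_Phi (mem_zpowers d))
  rwa [sup_eq_right.2 (Phi_le _)] at this

theorem zpowers_comm : ∀ a ∈ zpowers d, ∀ b ∈ zpowers d, a * b = b * a := by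
  rintro _ ⟨i, rfl⟩ _ ⟨j, rfl⟩
  exact (Commute.zpow_zpow_self d i j).eq

theorem normal_zpowers [h : (zpowers d).Normal] (hw : w ∈ zpowers d) : (zpowers w).Normal := by
  obtain ⟨k, rfl⟩ := hw
  refine ⟨?_⟩
  rintro _ ⟨l, rfl⟩ g
  obtain ⟨m, hm⟩ := h.conj_mem _ (mem_zpowers d) g
  simp only at hm ⊢
  rw [← conj_zpow, ← conj_zpow, ← hm, ← zpow_mul, ← zpow_mul, mul_comm k l, ← mul_assoc,
    mul_comm _ k, zpow_mul]
  exact zpow_mem_zpowers _ _

theorem exists_not_mem_of_card [Finite G] (h : Nat.card K < Nat.card L) : ∃ x ∈ L, x ∉ K :=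
  SetLike.not_le_iff_exists.1 fun e => absurd (card_le_of_le e) (not_le.2 h)

theorem card_zpowers_le (h : z ^ 2 = 1) : Nat.card (zpowers z) ≤ 2 := by
  rw [Nat.card_zpowers]
  exact Nat.le_of_dvd two_pos (orderOf_dvd_of_pow_eq_one h)

/-- The involutions of the derived subgroup. -/
abbrev UU (G : Type*) [Group G] : Subgroup G := omegaOne 2 𝒟(G)

namespace BS0

variable [Finite G] (H : BS0 G)
include H

theorem mem_U : v ∈ UU G ↔ v ∈ 𝒟(G) ∧ v ^ 2 = 1 := mem_omega H.ab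

theorem card_U : Nat.card (UU G) = 4 := (card_omega H.ab).trans H.idx

theorem U_normal : (UU G).Normal := ⟨fun v hv g => H.mem_U.2
  ⟨Normal.conj_mem inferInstance _ (H.mem_U.1 hv).1 g, by
    rw [conj_pow, (H.mem_U.1 hv).2, mul_one, mul_inv_cancel]⟩⟩

theorem card_CU : Nat.card (⊤ : Subgroup G) ≤ 2 * Nat.card (centralizer (UU G : Set G)) :=
  haveI := H.U_normal
  card_le_of_dvd le_top two_pos (relIndex_centralizer_dvd_of_card_sq (p := 2) (H.sub ⊤) le_top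
    (normalizer_eq_top _).ge H.card_U)

theorem Phi_le_CU : Phi 2 ⊤ ≤ centralizer (UU G : Set G) := by
  haveI := H.U_normal
  refine Phi_le_iff.2 ⟨fun g _ => ?_, fun g _ h _ => mem_centralizer_iff.2 fun u hu =>
    H.ab u (H.mem_U.1 hu).1 _ (comm_mem g h)⟩
  by_cases h : g ∈ centralizer (UU G : Set G)
  · exact pow_mem h 2
  · simpa only [inv_inv, pow_two] using mul_inv_mem_of_two le_top H.card_CU trivial trivial
      (mt inv_mem_iff.1 h) h

theorem conj_conj (hu : u ∈ 𝒟(G)) (g h : G) :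
    g * (h * u * h⁻¹) * g⁻¹ = h * (g * u * g⁻¹) * h⁻¹ := by
  have := H.ab _ (comm_mem g h) _ (Normal.conj_mem inferInstance _
    (Normal.conj_mem inferInstance _ hu g) h)
  calc _ = ⁅g, h⁆ * (h * (g * u * g⁻¹) * h⁻¹) * ⁅g, h⁆⁻¹ := by
        simp only [commutatorElement_def]; group
    _ = _ := by rw [this, mul_inv_cancel_right]

theorem inverts (h1 : zpowers a ⊔ zpowers b = ⊤) (h2 : Commute (a ^ 2) b) (hu : u ∈ 𝒟(G)) :
    a * u * a⁻¹ = u⁻¹ := by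
  let X : Subgroup G :=
    { carrier := {u | u ∈ 𝒟(G) ∧ a * u * a⁻¹ = u⁻¹}
      one_mem' := ⟨one_mem _, by simp⟩
      mul_mem' := fun {u v} hu hv => ⟨mul_mem hu.1 hv.1, by
        rw [← conj_mul, hu.2, hv.2, H.ab u hu.1 v hv.1, mul_inv_rev]⟩
      inv_mem' := fun {u} hu => ⟨inv_mem hu.1, by rw [← conj_inv, hu.2]⟩ }
  refine (commutator_le_of_sup_zpowers (K := X) (fun g _ => mem_normalizer_of_conj_mem
    fun u hu => ⟨Normal.conj_mem inferInstance _ hu.1 g, ?_⟩) h1 ⟨comm_mem a b, ?_⟩ hu).2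
  · rw [H.conj_conj hu.1, hu.2, conj_inv]
  · calc a * ⁅a, b⁆ * a⁻¹ = a ^ 2 * b * a⁻¹ * b⁻¹ * a⁻¹ := by
          simp only [commutatorElement_def, pow_two]; group
      _ = _ := by rw [h2.eq, commutatorElement_def, pow_two]; group

theorem comm_not (hu : u ∈ 𝒟(G)) (hu' : u ∉ RR G) (hg : g ∉ MM G) : ⁅u, g⁆ ∉ Phi 2 𝒟(G) :=
  fun e => hg (mem_cq.2 fun v hv => by
    by_cases h : v ∈ RR G
    · exact H.comm_RR h g
    have := mul_inv_mem_of_two RR_le H.cards.2 hu hv hu' h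
    convert mul_mem (Normal.conj_mem inferInstance _ (H.comm_RR this g) u) e using 1
    simp only [commutatorElement_def]; group)

theorem comm_sq (h1 : zpowers a ⊔ zpowers b = ⊤) (hb : b ∉ MM G) :
    ⁅a⁻¹, b ^ 2⁆ ∈ RR G ∧ ⁅a⁻¹, b ^ 2⁆ ∉ Phi 2 𝒟(G) := by
  have e : ⁅a⁻¹, b ^ 2⁆ = ⁅a⁻¹, b⁆ ^ 2 * ⁅⁅a⁻¹, b⁆⁻¹, b⁆ := by
    simp only [commutatorElement_def, pow_two]; group
  have h2 := pow_mem_Phi (p := 2) (comm_mem a⁻¹ b)
  rw [e, mul_mem_cancel_left h2]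
  exact ⟨mul_mem (mem_sup_left h2) (comm_mem_RR (inv_mem (comm_mem _ _)) b),
    H.comm_not (inv_mem (comm_mem _ _)) (mt inv_mem_iff.1 (H.c_not (by rwa [zpowers_inv]))) hb⟩

theorem orbit (h1 : zpowers a ⊔ zpowers b = ⊤) (h2 : Commute (a ^ 2) b) (hb : b ∉ MM G)
    (hu : u ∈ 𝒟(G)) : ∃ g, g * a * g⁻¹ = a * u := by
  have k1 : ∀ u ∈ 𝒟(G), ∀ v, (∃ g, g * a * g⁻¹ = a * v) → v⁻¹ * u ∈ Phi 2 𝒟(G) →
      ∃ g, g * a * g⁻¹ = a * u := by
    rintro u hu v ⟨g, hg⟩ h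
    obtain ⟨w, hw, e⟩ := exists_sq_of_mem_Phi H.ab h
    have hv : v ∈ 𝒟(G) := inv_mem_iff.1 ((mul_mem_cancel_right hu).1 (Phi_le _ h))
    refine ⟨w⁻¹ * g, ?_⟩
    calc _ = w⁻¹ * (g * a * g⁻¹) * w := by group
      _ = a * w * a⁻¹ * (a * v) * w := by rw [hg, H.inverts h1 h2 hw]
      _ = a * (w * v) * w := by group
      _ = a * v * w ^ 2 := by rw [H.ab w hw v hv, pow_two]; group
      _ = _ := by rw [e]; group
  have k2 : ∀ u ∈ RR G, ∃ g, g * a * g⁻¹ = a * u := fun u hu => by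
    by_cases h : u ∈ Phi 2 𝒟(G)
    · exact k1 u (RR_le hu) 1 ⟨1, by simp⟩ (by simpa using h)
    · exact k1 u (RR_le hu) ⁅a⁻¹, b ^ 2⁆ ⟨b ^ 2, by rw [commutatorElement_def]; group⟩
        (mul_inv_mem_of_two le_sup_left H.cards.1 (H.comm_sq h1 hb).1 hu (H.comm_sq h1 hb).2 h)
  by_cases h : u ∈ RR G
  · exact k2 u h
  obtain ⟨g, hg⟩ := k2 _ (Normal.conj_mem' inferInstance _ (mul_inv_mem_of_two RR_le H.cards.2
    (comm_mem a⁻¹ b) hu (H.c_not (by rwa [zpowers_inv])) h) b)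
  refine ⟨b * g, ?_⟩
  calc _ = b * (g * a * g⁻¹) * b⁻¹ := by group
    _ = _ := by rw [hg, commutatorElement_def]; group

end BS0

namespace BS

variable [Finite G] (H : BS a b y)
include H

theorem Phi_le_M : Phi 2 ⊤ ≤ MM G := H.toBS0.Phi_le_cq

theorem M_eq (he : e ∈ MM G) (he' : e ∉ Phi 2 ⊤) : MM G = Phi 2 ⊤ ⊔ zpowers e := by
  have h1 : MM G = _ := H.toBS0.cq_eq H.aP H.a2
  refine le_antisymm (h1.le.trans (sup_le le_sup_left (zpowers_le.2 (by_contra fun h => H.bM ?_))))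
    (sup_le H.Phi_le_M (zpowers_le.2 he))
  exact ((H.toBS0.gen he' h).ge.trans (sup_le (zpowers_le.2 he)
    (zpowers_le.2 (h1.ge (mem_sup_right (mem_zpowers a)))))) trivial

theorem gen (he : e ∈ MM G) (he' : e ∉ Phi 2 ⊤) (hg : g ∉ MM G) : zpowers e ⊔ zpowers g = ⊤ :=
  H.toBS0.gen he' (H.M_eq he he' ▸ hg)

theorem aM : a ∈ MM G := (H.toBS0.cq_eq H.aP H.a2).ge (mem_sup_right (mem_zpowers a))

theorem mem_M (h : g ^ 2 ∈ 𝒟(G)) : g ∈ MM G := by_contra fun e => H.sq g e h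

theorem cent_le_M (he : e ∈ MM G) (he' : e ∉ Phi 2 ⊤) (h : Commute e g) : g ∈ MM G :=
  by_contra fun hg => H.toBS0.c_not (H.gen he he' hg)
    (commutatorElement_eq_one_iff_commute.2 h ▸ one_mem _)

theorem Phi_eq : Phi 2 ⊤ = 𝒟(G) ⊔ zpowers (b ^ 2) := by
  refine le_antisymm ?_ (sup_le (commutator_le_Phi _) (zpowers_le.2 (pow_mem_Phi trivial)))
  haveI : (𝒟(G) ⊔ zpowers (b ^ 2)).Normal := normal_of_le le_sup_left
  let X : Subgroup G :=
    { carrier := {g | g ^ 2 ∈ 𝒟(G) ⊔ zpowers (b ^ 2)}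
      one_mem' := by simp
      mul_mem' := fun {g h} hg hh => by
        rw [Set.mem_setOf_eq, mul_sq']
        exact mul_mem (mul_mem hg (mem_sup_left
          (Normal.conj_mem' inferInstance _ (comm_mem _ _) _))) hh
      inv_mem' := fun {g} hg => by rw [Set.mem_setOf_eq, inv_pow]; exact inv_mem hg }
  refine Phi_le_iff.2 ⟨fun g _ => ?_, fun g _ h _ => mem_sup_left (comm_mem g h)⟩
  exact ((H.gen H.aM H.aP H.bM).ge.trans (sup_le (zpowers_le.2 (show a ∈ X from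
    mem_sup_left (RR_le H.a2))) (zpowers_le.2 (show b ∈ X from mem_sup_right (mem_zpowers _)))))
    (mem_top g)

theorem mem_U_of_sq (hv : v ∈ Phi 2 ⊤) (h : v ^ 2 = 1) : v ∈ UU G := by
  by_contra hn
  have H0 := H.toBS0
  have h1 : UU G ⊔ zpowers v ≤ Phi 2 ⊤ :=
    sup_le ((omegaOne_le _).trans (commutator_le_Phi _)) (zpowers_le.2 hv)
  have hc : ∀ a ∈ UU G ⊔ zpowers v, ∀ b ∈ UU G ⊔ zpowers v, a * b = b * a := fun a ha b hb =>
    mul_comm_of_le_sup_zpowers (mem_sup_right (mem_zpowers v))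
      (fun k hk h hh => mem_centralizer_iff.1 (H0.Phi_le_CU (h1 hh)) k hk) le_rfl ha hb
  have h2 := Nat.le_of_dvd (by norm_num) (H.met.of_le (le_sup_of_le_left h1)).gen2.dvd
  have h3 := mul_card_le_of_lt (H0.sub _) (lt_sup_zpowers hn)
  have h4 := card_le_of_le (sup_le (fun u hu => mem_omegaOne (mem_sup_left hu) (H0.mem_U.1 hu).2)
    (zpowers_le.2 (mem_omegaOne (mem_sup_right (mem_zpowers v)) h)) :
      UU G ⊔ zpowers v ≤ omegaOne 2 (UU G ⊔ zpowers v))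
  rw [card_omega hc] at h4
  rw [H0.card_U] at h3
  omega

theorem sq_eq_one (hg : g ∈ Phi 2 ⊤) (hi : i ∈ 𝒟(G)) (h : g * i * g⁻¹ = i⁻¹) : i ^ 2 = 1 := by
  have H0 := H.toBS0
  haveI := H.yn
  haveI := Phi_normal (zpowers y)
  have h1 : Phi 2 ⊤ ≤ cq 𝒟(G) (Phi 2 (zpowers y)) := by
    refine H.Phi_eq.le.trans (sup_le (fun v hv => mem_cq.2 fun u hu => ?_)
      (zpowers_le.2 (mem_cq.2 fun u hu => ?_)))
    · rw [commutatorElement_eq_one_iff_mul_comm.2 (H.ab u hu v hv)]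
      exact one_mem _
    · convert mul_mem (pow_mem_Phi (H.cyc u hu))
        (comm_mem_Phi_zpowers H.pg (inv_mem (H.cyc u hu)) b) using 1
      simp only [commutatorElement_def, pow_two]; group
  obtain ⟨w, hw, e⟩ := exists_sq_of_mem_Phi zpowers_comm (mem_cq.1 (h1 hg) i hi)
  have hwA := zpowers_le.2 H.yA hw
  have e1 : w ^ 2 = i ^ 2 := by
    rw [e, commutatorElement_def, mul_assoc, mul_assoc, ← mul_assoc g, ← conj_inv, h, inv_inv,
      pow_two]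
  have hu : i * w⁻¹ ∈ UU G := H0.mem_U.2 ⟨mul_mem hi (inv_mem hwA), by
    rw [Commute.mul_pow (H.ab _ hi _ (inv_mem hwA)), inv_pow, e1, mul_inv_cancel]⟩
  have e2 : g * w * g⁻¹ = w⁻¹ := by
    have := mem_centralizer_iff.1 (H0.Phi_le_CU hg) _ hu
    calc g * w * g⁻¹ = (g * (i * w⁻¹) * g⁻¹)⁻¹ * (g * i * g⁻¹) := by group
      _ = w * (i ^ 2)⁻¹ := by rw [← this, h, pow_two]; group
      _ = _ := by rw [← e1, pow_two]; group
  haveI := normal_zpowers hw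
  haveI := normal_zpowers (npow_mem_zpowers w 4)
  have h2 : Phi 2 ⊤ ≤ cq (zpowers w) (zpowers (w ^ 4)) := by
    refine Phi_le_iff.2 ⟨fun k _ => mem_cq_zpowers.2 ?_, fun k _ l _ => mem_cq_zpowers.2 ?_⟩
    · obtain ⟨_, ⟨l, rfl⟩, e⟩ := exists_sq_of_mem_Phi zpowers_comm
        (comm_mem_Phi_zpowers H.pg (mem_zpowers w) k)
      have e3 : k * w * k⁻¹ = w ^ (1 - 2 * l) := by
        calc k * w * k⁻¹ = ⁅w, k⁆⁻¹ * w := by rw [commutatorElement_def]; group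
          _ = _ := by rw [← e]; group
      refine ⟨l - l * l, ?_⟩
      calc _ = w * ((w ^ (1 - 2 * l)) ^ (1 - 2 * l))⁻¹ := by group
        _ = w * (k * (k * w * k⁻¹) * k⁻¹)⁻¹ := by rw [e3, ← conj_zpow, e3]
        _ = ⁅w, k ^ 2⁆ := by
          simp only [pow_two, commutatorElement_def, mul_inv_rev, inv_inv, mul_assoc]
    · rw [commutatorElement_eq_one_iff_mul_comm.2 (H.ab _ hwA _ (comm_mem k l))]
      exact one_mem _
  obtain ⟨l, hl⟩ := mem_cq_zpowers.1 (h2 hg)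
  rw [← e1, ← mem_bot]
  refine mem_of_odd_zpow H.pg (i := 1 - 2 * l) (by simp [Int.odd_sub]) (mem_bot.2 ?_)
  have e4 : ⁅w, g⁆ = w ^ 2 := by
    rw [commutatorElement_def, mul_assoc, mul_assoc, ← mul_assoc g, ← conj_inv, e2, inv_inv,
      pow_two]
  calc _ = w ^ 2 * ((w ^ 4) ^ l)⁻¹ := by group
    _ = 1 := by rw [show (w ^ 4) ^ l = _ from hl, e4, mul_inv_cancel]

end BS

end Cfsg.Agent.H3.Bic
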