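import Cfsg.Agent.Lib.H3.Bic5

/-!
# No essential subgroups: the final contradiction
-/

set_option autoImplicit false
set_option linter.unusedSectionVars false

namespace Cfsg.Agent.H3.Bic

open Subgroup Cfsg.Agent.H9
open scoped commutatorElement

variable {G : Type*} [Group G] {A C K K' M N P Q W : Subgroup G}
  {a b c d e g h i j m t u v w x y z : G}

/-- The local structure of an essential subgroup `Q = W C`. -/
structure Loc (Q W C : Subgroup G) : Prop where
  WQ : W ≤ Q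
  CQ : C ≤ Q
  prod : ∀ q ∈ Q, ∃ w ∈ W, ∃ c ∈ C, q = w * c
  ne : Q ≠ ⊤
  nW : normalizer (Q : Set G) ≤ normalizer (W : Set G)
  idx : (Phi 2 W).relIndex W = 4
  act : ∀ t ∈ normalizer (Q : Set G), t ∉ Q → ∃ j ∈ W, ⁅j, t⁆ ∉ Phi 2 W

/-- The case that `W` is homocyclic. -/
structure LocA (Q W C : Subgroup G) : Prop extends Loc Q W C where
  ab : ∀ u ∈ W, ∀ v ∈ W, u * v = v * u
  disj : ∀ c ∈ C, c ∈ W → c = 1
  hom : ∀ i ∈ W, i ∉ Phi 2 W → i ^ 2 = 1 → ∀ w ∈ W, w ^ 2 = 1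
  cen : ∀ v ∈ W, v ^ 2 = 1 → ∀ c ∈ C, v * c = c * v
  actV : ∀ t ∈ normalizer (Q : Set G), t ∉ Q → ∃ v ∈ W, v ^ 2 = 1 ∧ v * t ≠ t * v

/-- The case that `W` is quaternion. -/
structure LocQ (Q W C : Subgroup G) (z : G) : Prop extends Loc Q W C where
  cen : ∀ v ∈ W, ∀ c ∈ C, v * c = c * v
  z1 : z ≠ 1
  phi : ∀ w ∈ Phi 2 W, w = 1 ∨ w = z
  sq : ∀ w ∈ W, w ∉ Phi 2 W → w ^ 2 = z

theorem norm_cent (h : g ∈ normalizer (K : Set G)) : g ∈ normalizer (centralizer (K : Set G) : Set G) :=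
  mem_normalizer_iff.2 fun x => by
    simp only [mem_centralizer_iff, SetLike.mem_coe]
    refine ⟨fun hx k hk => ?_, fun hx k hk => ?_⟩
    · calc k * (g * x * g⁻¹) = g * (g⁻¹ * k * g * x) * g⁻¹ := by group
        _ = _ := by rw [hx _ (conj_mem_of_mem_normalizer' h hk)]; group
    · calc k * x = g⁻¹ * (g * k * g⁻¹ * (g * x * g⁻¹)) * g := by group
        _ = _ := by rw [hx _ (conj_mem_of_mem_normalizer h hk)]; group

theorem norm_of_le [Finite G] (h : K ≤ K.comap (MulAut.conj g).toMonoidHom) :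
    g ∈ normalizer (K : Set G) := mem_normalizer_of_conj_mem fun _ hx => h hx

theorem norm_sup [Finite G] (h1 : g ∈ normalizer (K : Set G)) (h2 : g ∈ normalizer (K' : Set G)) :
    g ∈ normalizer ((K ⊔ K' : Subgroup G) : Set G) :=
  norm_of_le (sup_le (fun _ hx => mem_sup_left (conj_mem_of_mem_normalizer h1 hx))
    fun _ hx => mem_sup_right (conj_mem_of_mem_normalizer h2 hx))

namespace Loc

variable [Finite G] (L : Loc Q W C)
include L

theorem cent_le (hG : IsPGroup 2 G) (hn : Q ≤ normalizer (K : Set G))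
    (h : ∀ t ∈ normalizer (Q : Set G), t ∉ Q → t ∉ centralizer (K : Set G)) :
    centralizer (K : Set G) ≤ Q := by
  by_contra hc
  obtain ⟨g, h1, h2, h3, -⟩ := exists_mem_normalizer_of_not_le (hG.to_subgroup ⊤) le_top le_top
    (fun q hq => norm_cent (hn hq)) hc
  exact h g h3 h2 h1

theorem exists_t (hG : IsPGroup 2 G) : ∃ t ∈ normalizer (Q : Set G), t ∉ Q :=
  let ⟨t, _, h1, h2, _⟩ := exists_mem_normalizer_not_mem (hG.to_subgroup ⊤) le_top
    fun e => L.ne (top_le_iff.1 e)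
  ⟨t, h2, h1⟩

theorem comm_mem (ht : t ∈ normalizer (Q : Set G)) (hj : j ∈ W) : ⁅j, t⁆ ∈ W := by
  simpa only [commutatorElement_def, mul_assoc] using
    mul_mem hj (conj_mem_of_mem_normalizer (L.nW ht) (inv_mem hj))

theorem gen (hG : IsPGroup 2 G) (hu : u ∈ W) (hv : v ∈ W) (hu' : u ∉ Phi 2 W)
    (hv' : v ∉ Phi 2 W ⊔ zpowers u) : zpowers u ⊔ zpowers v = W :=
  gen_of (hG.to_subgroup W) L.idx.dvd hu hv hu' hv'

theorem final (H : BS a b y) (hC : ∀ v ∈ W, ∀ c ∈ C, v * c = c * v)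
    (hW : zpowers i ⊔ zpowers e = W) (hi : i ∈ 𝒟(G)) (he : e ∈ MM G) (he' : e ∉ Phi 2 ⊤)
    (hU : e ∈ centralizer (UU G : Set G)) (hu : u ∈ UU G) (h1 : g * e * g⁻¹ = e * u)
    (h2 : i⁻¹ * (g * i * g⁻¹) ∈ UU G) : u ∈ W := by
  have H0 := H.toBS0
  haveI := H0.U_normal
  have hiW : i ∈ W := hW.le (mem_sup_left (mem_zpowers i))
  have heW : e ∈ W := hW.le (mem_sup_right (mem_zpowers e))
  have k1 : centralizer (W : Set G) ≤ Q :=
    L.cent_le H.pg (le_normalizer.trans L.nW) fun t ht ht' hc => by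
      obtain ⟨j, hj, hj'⟩ := L.act t ht ht'
      exact hj' (commutatorElement_eq_one_iff_mul_comm.2 (mem_centralizer_iff.1 hc j hj) ▸ one_mem _)
  have k2 : centralizer (W : Set G) ≤ centralizer ((W ⊔ UU G : Subgroup G) : Set G) := by
    refine le_centralizer_iff.1 (sup_le (le_centralizer_iff.1 le_rfl) (le_centralizer_iff.1 ?_))
    refine fun x hx => ((H.M_eq he he').le.trans (sup_le H0.Phi_le_CU (zpowers_le.2 hU))) ?_
    exact H.cent_le_M he he' (mem_centralizer_iff.1 hx e heW)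
  have k3 : UU G ≤ centralizer (W : Set G) := by
    refine le_centralizer_iff.1 (hW.ge.trans (sup_le (zpowers_le.2 ?_) (zpowers_le.2 hU)))
    exact H0.Phi_le_CU (commutator_le_Phi _ hi)
  have k4 : Q = W ⊔ UU G ⊔ centralizer ((W ⊔ UU G : Subgroup G) : Set G) := by
    refine le_antisymm (fun q hq => ?_) (sup_le (sup_le L.WQ (k3.trans k1))
      ((centralizer_le (SetLike.coe_subset_coe.2 le_sup_left)).trans k1))
    obtain ⟨w, hw, c, hc, rfl⟩ := L.prod q hq
    exact mul_mem_sup (mem_sup_left hw) (k2 (mem_centralizer_iff.2 fun v hv => hC v hv c hc))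
  have k5 : g ∈ normalizer ((W ⊔ UU G : Subgroup G) : Set G) := by
    refine norm_of_le (sup_le (hW.ge.trans (sup_le (zpowers_le.2 ?_) (zpowers_le.2 ?_)))
      fun x hx => mem_sup_right (Normal.conj_mem inferInstance _ hx g))
    · simpa using mul_mem_sup hiW h2
    · simpa [h1] using mul_mem_sup heW hu
  have k6 := conj_mem_of_mem_normalizer (L.nW (k4 ▸ norm_sup k5 (norm_cent k5))) heW
  rwa [h1, mul_mem_cancel_left heW] at k6

end Loc

theorem LocQ.false [Finite G] (L : LocQ Q W C z) (H : BS a b y) : False := by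
  have H0 := H.toBS0
  haveI := H0.U_normal
  obtain ⟨t, ht, ht'⟩ := L.toLoc.exists_t H.pg
  obtain ⟨j, hj, hi'⟩ := L.act t ht ht'
  have hi := L.toLoc.comm_mem ht hj
  have hiA := comm_mem j t
  generalize ⁅j, t⁆ = i at hi hi' hiA
  have hi2 := L.sq i hi hi'
  obtain ⟨e, he, he'⟩ := SetLike.not_le_iff_exists.1 fun h : W ≤ Phi 2 W ⊔ zpowers i => by
    have h1 := relIndex_sup_zpowers_dvd (le_normalizer_Phi (p := 2) W hi) (pow_mem_Phi hi)
    rw [← le_antisymm h (sup_le (Phi_le W) (zpowers_le.2 hi)), L.idx] at h1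
    omega
  have he2 := L.sq e he fun h => he' (mem_sup_left h)
  have hz : z ∈ UU G := H0.mem_U.2 ⟨hi2 ▸ pow_mem hiA 2, by
    rcases L.phi _ (pow_mem_Phi (hi2 ▸ pow_mem hi 2)) with h | h
    · exact h
    · exact absurd (mul_left_cancel (a := z) (by rw [← pow_two, h, mul_one])) L.z1⟩
  have hz2 := (H0.mem_U.1 hz).2
  have hinv : e * i * e⁻¹ = i⁻¹ := by
    have := L.sq (e * i) (mul_mem he hi) fun h => he' (by
      simpa using mul_mem (mem_sup_left h) (inv_mem (mem_sup_right (mem_zpowers i))))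
    rw [← he2, pow_two, pow_two, mul_assoc, mul_right_inj] at this
    rw [mul_inv_eq_iff_eq_mul, eq_inv_mul_iff_mul_eq, this]
  have heP : e ∉ Phi 2 ⊤ := fun h => L.z1 (hi2 ▸ H.sq_eq_one h hiA hinv)
  have heM : e ∈ MM G := H.mem_M (he2 ▸ (H0.mem_U.1 hz).1)
  have hWU : ∀ u ∈ UU G, u ∈ W → u = 1 ∨ u = z := fun u hu huW => L.phi u (by_contra fun h =>
    L.z1 ((L.sq u huW h).symm.trans (H0.mem_U.1 hu).2))
  have hW := L.toLoc.gen H.pg hi he hi' he'
  have hgen := H.gen heM heP H.bM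
  have hez : Commute z e := he2 ▸ Commute.pow_self e 2
  by_cases hzb : Commute z b
  · obtain ⟨u, hu, hu'⟩ := exists_not_mem_of_card (K := zpowers z) (L := UU G)
      (by have := card_zpowers_le hz2; rw [H0.card_U]; omega)
    obtain ⟨g, hg⟩ := H0.orbit hgen (he2 ▸ hzb) H.bM (H0.mem_U.1 hu).1
    have hzg : z * g = g * z := mem_centralizer_singleton_iff.1 ((hgen.ge.trans (sup_le
      (zpowers_le.2 (mem_centralizer_singleton_iff.2 hez.symm.eq))
      (zpowers_le.2 (mem_centralizer_singleton_iff.2 hzb.symm.eq)))) (mem_top g)) |>.symm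
    have hi3 := Normal.conj_mem inferInstance _ hiA g
    refine (hWU u hu (L.toLoc.final H L.cen hW hiA heM heP (mem_centralizer_iff.2 fun v hv => ?_)
      hu hg (H0.mem_U.2 ⟨mul_mem (inv_mem hiA) hi3, ?_⟩))).elim (fun h => hu' (h ▸ one_mem _))
      fun h => hu' (h ▸ mem_zpowers _)
    · have := H0.inverts hgen (he2 ▸ hzb) (H0.mem_U.1 hv).1
      rw [inv_eq_of_mul_eq_one_right ((pow_two v).symm.trans (H0.mem_U.1 hv).2)] at this
      exact (mul_inv_eq_iff_eq_mul.1 this).symm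
    · rw [Commute.mul_pow (H.ab _ (inv_mem hiA) _ hi3), conj_pow, inv_pow, hi2, ← hzg]
      group
  have hi3 := Normal.conj_mem inferInstance _ hiA b
  have hz3 := Normal.conj_mem inferInstance _ hz b
  refine (hWU _ hz3 (L.toLoc.final H L.cen hW hiA heM heP (by_contra fun h => hzb ?_) hz3
    (g := (b * i * b⁻¹)⁻¹) ?_ ?_)).elim (fun h => L.z1 (by simpa using h))
    fun h => hzb (mul_inv_eq_iff_eq_mul.1 h).symm
  · have := mem_centralizer_iff.1 (mul_inv_mem_of_two le_top H0.card_CU trivial trivial h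
      fun h' => hzb (mem_centralizer_iff.1 h' z hz)) z hz
    calc z * b = e * (z * (e⁻¹ * b)) := by rw [← mul_assoc, ← hez.eq]; group
      _ = b * z := by rw [this]; group
  · have := H0.conj_conj hiA e b
    rw [hinv] at this
    calc _ = (b * i⁻¹ * b⁻¹) * e * (b * i * b⁻¹) := by group
      _ = e * (b * i ^ 2 * b⁻¹) := by rw [← this, pow_two]; group
      _ = _ := by rw [hi2]
  · rw [H.ab _ (inv_mem hi3) _ hiA, mul_inv_cancel_right, inv_mul_cancel]
    exact one_mem _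

theorem LocA.false [Finite G] (L : LocA Q W C) (H : BS a b y) : False := by
  have H0 := H.toBS0
  haveI := H0.U_normal
  by_cases hV : ∀ v ∈ W, v ^ 2 = 1 → v ∈ Phi 2 ⊤
  swap
  · push Not at hV
    obtain ⟨e, he, he2, heP⟩ := hV
    have hel := L.hom e he (fun h => heP (Phi_mono le_top h)) he2
    obtain ⟨t, ht, ht'⟩ := L.toLoc.exists_t H.pg
    obtain ⟨j, hj, hi'⟩ := L.act t ht ht'
    have hi := L.toLoc.comm_mem ht hj
    have hiA := comm_mem j t
    generalize ⁅j, t⁆ = i at hi hi' hiA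
    have hiU : i ∈ UU G := H0.mem_U.2 ⟨hiA, hel i hi⟩
    have hiP := commutator_le_Phi (p := 2) _ hiA
    have heM : e ∈ MM G := H.mem_M (he2 ▸ one_mem _)
    have hgen := H.gen heM heP H.bM
    have hc : Commute (e ^ 2) b := he2 ▸ Commute.one_left b
    obtain ⟨u, hu, hu'⟩ := exists_not_mem_of_card (K := zpowers i) (L := UU G)
      (by have := card_zpowers_le (hel i hi); rw [H0.card_U]; omega)
    obtain ⟨g, hg⟩ := H0.orbit hgen hc H.bM (H0.mem_U.1 hu).1
    have huW := L.toLoc.final H (fun v hv => L.cen v hv (hel v hv)) (L.toLoc.gen H.pg hi he hi'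
      fun h => heP (sup_le (Phi_mono le_top) (zpowers_le.2 hiP) h)) hiA heM heP
      (mem_centralizer_iff.2 fun v hv => by
        have := H0.inverts hgen hc (H0.mem_U.1 hv).1
        rw [inv_eq_of_mul_eq_one_right ((pow_two v).symm.trans (H0.mem_U.1 hv).2)] at this
        exact (mul_inv_eq_iff_eq_mul.1 this).symm) hu hg
      (mul_mem (inv_mem hiU) (Normal.conj_mem inferInstance _ hiU g))
    refine heP (((L.toLoc.gen H.pg hi huW hi' fun h => hu' ((sup_le (fun v hv => ?_) le_rfl :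
      _ ≤ zpowers i) h)).ge.trans (sup_le (zpowers_le.2 hiP) (zpowers_le.2 (commutator_le_Phi _ (H0.mem_U.1 hu).1)))) he)
    obtain ⟨w, hw, rfl⟩ := exists_sq_of_mem_Phi L.ab hv
    exact hel w hw ▸ one_mem _
  have hVU : omegaOne 2 W = UU G := eq_of_le_of_card_ge
    (omegaOne_le_iff.2 fun v hv h => H.mem_U_of_sq (hV v hv h) h)
    (by rw [card_omega L.ab, L.idx, H0.card_U])
  have hUW : UU G ≤ W := hVU ▸ omegaOne_le W
  have hQ : centralizer (UU G : Set G) ≤ Q :=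
    L.toLoc.cent_le H.pg (fun _ _ => (normalizer_eq_top _).ge trivial) fun t ht ht' hc => by
      obtain ⟨v, hv, h1, h2⟩ := L.actV t ht ht'
      exact h2 (mem_centralizer_iff.1 hc v (hVU.le (mem_omegaOne hv h1)))
  have hPQ : Phi 2 ⊤ ≤ Q := H0.Phi_le_CU.trans hQ
  haveI : Q.Normal := normal_of_le ((commutator_le_Phi _).trans hPQ)
  haveI : W.Normal := normalizer_eq_top_iff.1 (top_le_iff.1 ((normalizer_eq_top Q).ge.trans L.nW))
  have hCP : ∀ c ∈ C, c ∈ Phi 2 ⊤ → c = 1 := fun c hc hc' => by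
    by_contra h1
    obtain ⟨k, hk⟩ := H.pg c
    obtain ⟨l, h2, h3⟩ := exists_pow_not_mem_pow_succ_mem (K := ⊥) (mt mem_bot.1 h1) (mem_bot.2 hk)
    exact h2 (L.disj _ (pow_mem hc _) (hUW (H.mem_U_of_sq (pow_mem hc' _) (mem_bot.1 h3))))
  have hb2 : b ^ 2 ∈ Phi 2 ⊤ := pow_mem_Phi trivial
  by_cases hC : ∀ c ∈ C, c = 1
  · have hQW : Q ≤ W := fun q hq => by
      obtain ⟨w, hw, c, hc, rfl⟩ := L.prod q hq
      rwa [hC c hc, mul_one]
    obtain ⟨q, hq, hq'⟩ := exists_not_mem_of_card (K := Phi 2 ⊤) (L := Q) (by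
      have h1 := H0.card_CU
      have h2 := card_le_of_le hQ
      have h3 := mul_card_le_of_lt (H0.sub _) (lt_sup_zpowers H.aP)
      have h4 := mul_card_le_of_lt (H0.sub ⊤) (lt_top_iff_ne_top.2 fun e =>
        H.bM (((H.M_eq H.aM H.aP).trans e).ge trivial))
      have h5 := card_pos' (Phi 2 (⊤ : Subgroup G))
      omega)
    have hqM : q ∈ MM G := mem_cq.2 fun u hu => commutatorElement_eq_one_iff_mul_comm.2
      (L.ab u (hQW (hPQ (commutator_le_Phi _ hu))) q (hQW hq)) ▸ one_mem _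
    exact (H0.comm_sq (H.gen hqM hq' H.bM) H.bM).2 (commutatorElement_eq_one_iff_mul_comm.2
      (L.ab _ (inv_mem (hQW hq)) _ (hQW (hPQ hb2))) ▸ one_mem _)
  push Not at hC
  obtain ⟨e, he, he1⟩ := hC
  have heP : e ∉ Phi 2 ⊤ := fun h => he1 (hCP e he h)
  have he2 : e ^ 2 = 1 := hCP _ (pow_mem he 2) (pow_mem_Phi trivial)
  have heM : e ∈ MM G := H.mem_M (he2 ▸ one_mem _)
  have heW : e ∉ W := fun h => he1 (L.disj e he h)
  have hgen := H.gen heM heP H.bM
  have hQM : Q ≤ MM G := fun q hq => by_contra fun h => L.ne (top_le_iff.1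
    ((H.gen heM heP h).ge.trans (sup_le (zpowers_le.2 (L.CQ he)) (zpowers_le.2 hq))))
  have hdec : ∀ q ∈ Q, q ∈ W ∨ q * e⁻¹ ∈ W := fun q hq => by
    obtain ⟨w, hw, c, hc, rfl⟩ := L.prod q hq
    by_cases h : c = 1
    · left; rwa [h, mul_one]
    · right
      have := hCP _ (mul_mem (inv_mem he) hc) (mul_inv_mem_of_two H.Phi_le_M (by
        rw [H.M_eq heM heP, card_sup_zpowers ((normalizer_eq_top _).ge trivial) heP
          (pow_mem_Phi trivial), mul_comm]) heM (hQM (L.CQ hc)) heP fun h' => h (hCP c hc h'))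
      rwa [← inv_mul_eq_one.1 this, mul_inv_cancel_right]
  have hAW : 𝒟(G) ≤ W := by
    refine commutator_le_of_sup_zpowers (normalizer_eq_top _).ge hgen ?_
    rcases hdec _ (Normal.conj_mem inferInstance _ (L.CQ he) b) with h | h
    · exact absurd (by simpa [mul_assoc] using Normal.conj_mem' inferInstance _ h b) heW
    · exact comm_mem_symm h
  obtain ⟨j, hj, hi'⟩ := L.act b ((normalizer_eq_top _).ge trivial) fun h => H.bM (hQM h)
  have hiA := comm_mem j b
  rcases hdec _ (hPQ hb2) with h | h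
  · haveI := Phi_normal W
    have h1 : b ^ 2 ∈ Phi 2 W ⊔ zpowers ⁅j, b⁆ := by
      by_contra h1
      refine hi' (comm_mem_symm (mem_cq_zpowers.1 (((L.toLoc.gen H.pg (hAW hiA) h hi' h1).ge.trans
        (sup_le (zpowers_le.2 (mem_cq_zpowers.2 ?_)) (zpowers_le.2 (mem_cq_zpowers.2 ?_)))) hj)))
      · convert inv_mem (pow_mem_Phi (p := 2) (hAW hiA)) using 1
        calc ⁅b, ⁅j, b⁆⁆ = ⁅j, b⁆⁻¹ * (j * b ^ 2) * j⁻¹ * (b ^ 2)⁻¹ * ⁅j, b⁆⁻¹ := by
              simp only [commutatorElement_def, pow_two]; group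
          _ = _ := by rw [L.ab j hj _ h, pow_two ⁅j, b⁆]; group
      · rw [commutatorElement_eq_one_iff_commute.2 (Commute.self_pow b 2)]
        exact one_mem _
    have h2 : W ≤ Phi 2 ⊤ := fun w hw => by_contra fun h' => heW ((H.M_eq (hQM (L.WQ hw)) h').le.trans
      (sup_le (H.Phi_eq.le.trans (sup_le hAW (zpowers_le.2 h))) (zpowers_le.2 hw)) heM)
    have h3 : Phi 2 W ≤ 𝒟(G) ⊔ zpowers ((b ^ 2) ^ 2) := fun v hv => by
      obtain ⟨w, hw, rfl⟩ := exists_sq_of_mem_Phi L.ab hv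
      obtain ⟨u, hu, k, rfl⟩ := (mem_sup_zpowers ((normalizer_eq_top _).ge trivial)).1
        (H.Phi_eq.le (h2 hw))
      rw [Commute.mul_pow (L.ab u (hAW hu) _ (zpow_mem h k)), ← zpow_natCast (_ ^ k), ← zpow_mul,
        mul_comm k, zpow_mul, zpow_natCast]
      exact mul_mem_sup (pow_mem hu 2) (zpow_mem_zpowers _ k)
    obtain ⟨u, hu, k, hk⟩ := (mem_sup_zpowers ((normalizer_eq_top _).ge trivial)).1
      (sup_le h3 (zpowers_le.2 (mem_sup_left hiA)) h1)
    refine H.sq b H.bM (mem_of_odd_zpow H.pg (i := 1 - 2 * k) (by simp [Int.odd_sub]) ?_)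
    convert hu using 1
    rw [eq_mul_inv_of_mul_eq hk.symm, zpow_sub, zpow_one, zpow_mul, zpow_ofNat]
  · have h1 := H.sq_eq_one hb2 hiA (by
      have h2 := H0.inverts hgen (he2 ▸ Commute.one_left b) hiA
      calc _ = b ^ 2 * e⁻¹ * (e * ⁅j, b⁆ * e⁻¹) * (b ^ 2 * e⁻¹)⁻¹ := by group
        _ = _ := by rw [h2, L.ab _ h _ (inv_mem (hAW hiA)), mul_inv_cancel_right])
    exact heP (inv_mem_iff.1 ((mul_mem_cancel_left hb2).1
      (hV _ h (L.hom _ (hAW hiA) hi' h1 _ h))))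

end Cfsg.Agent.H3.Bic
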