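import Cfsg.Agent.Lib.H3.Bic6
import Cfsg.Agent.Lib.H9.Transv

/-!
# Strongly embedded subgroups of subgroups of `GL₃(2)`
-/

set_option autoImplicit false
set_option linter.unusedSectionVars false

namespace Cfsg.Agent.H3.Bic

open Subgroup Cfsg.Agent.H9
open scoped commutatorElement

variable {V : Type*} [CommGroup V] [Finite V]

theorem exists_centre (hV : ∀ v : V, v * v = 1) (hc : Nat.card V ≤ 8) {σ : MulAut V} (h1 : σ ≠ 1)
    (h2 : σ * σ = 1) : ∃ p, p ≠ 1 ∧ σ p = p ∧ ∀ v, σ v = v ∨ σ v = v * p := by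
  let φ : V →* V := MonoidHom.id V * σ.toMonoidHom
  have e : ∀ v, φ v = v * σ v := fun _ => rfl
  have e1 : ∀ v, σ v = v * φ v := fun v => by rw [e, ← mul_assoc, hV, one_mul]
  have e2 : ∀ v, σ (φ v) = φ v := fun v => by
    rw [e, map_mul, ← MulAut.mul_apply, h2, MulAut.one_apply, mul_comm]
  have h3 : φ.range ≤ φ.ker := by
    rintro _ ⟨v, rfl⟩
    rw [MonoidHom.mem_ker, e, e2, hV]
  have h4 := φ.ker.card_mul_index
  rw [index_ker] at h4
  have h5 := card_le_of_le h3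
  obtain ⟨v, hv⟩ : ∃ v, φ v ≠ 1 := by
    by_contra! h
    exact h1 (MulEquiv.ext fun v => by rw [e1, h, mul_one]; rfl)
  have h6 : Nat.card φ.range ≠ 1 := fun h => hv (mem_bot.1 ((card_eq_one.1 h).le ⟨v, rfl⟩))
  have h7 := card_pos' φ.range
  have h8 : Nat.card φ.range = 2 := by
    by_contra h
    have : 3 ≤ Nat.card φ.range := by omega
    nlinarith
  refine ⟨φ v, hv, e2 v, fun w => ?_⟩
  by_cases h : φ w = 1
  · left; rw [e1, h, mul_one]
  · right; rw [e1 w, eq_of_card_two h8 ⟨w, rfl⟩ h ⟨v, rfl⟩ hv]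

theorem fix_mul (hV : ∀ v : V, v * v = 1) {σ : MulAut V} {p v w : V}
    (h : ∀ v, σ v = v ∨ σ v = v * p) (hv : σ v ≠ v) (hw : σ w ≠ w) : σ (v * w) = v * w := by
  rw [map_mul, (h v).resolve_left hv, (h w).resolve_left hw, mul_mul_mul_comm, hV, mul_one]

theorem exists_three {H : Type*} [Group H] {I T M A : Subgroup H} [Finite A]
    (h : SPEData 2 I T M A) (ρ : H →* MulAut V) (hρ : ∀ x ∈ A, ρ x = 1 ↔ x ∈ I)
    (hV : ∀ v : V, v * v = 1) (hc : Nat.card V ≤ 8) :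
    ∃ α : H, α ^ 3 = 1 ∧ α ≠ 1 ∧ ∀ s ∈ T, s ∉ I → s * α * s⁻¹ * α ∈ I := by
  have hV2 : IsPGroup 2 V := fun v => ⟨1, by rw [pow_one, pow_two, hV]⟩
  obtain ⟨t, ht, htI, ht2⟩ : ∃ t ∈ T, t ∉ I ∧ t ^ 2 ∈ I := by
    obtain ⟨t, ht, htI⟩ := h.exists_not_mem_I
    obtain ⟨k, hk⟩ := h.exists_pow_eq_one ht
    obtain ⟨j, h1, h2⟩ := exists_pow_not_mem_pow_succ_mem htI (hk ▸ one_mem I)
    exact ⟨_, pow_mem ht _, h1, h2⟩
  have htA := h.mem_A ht
  have hτ : ρ t * ρ t = 1 := by rw [← map_mul, ← pow_two, hρ _ (pow_mem htA 2)]; exact ht2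
  obtain ⟨p, hp1, hp, hp'⟩ := exists_centre hV hc (mt (hρ t htA).1 htI) hτ
  have hq : ∀ g v, ρ (g * t * g⁻¹) v = v ∨ ρ (g * t * g⁻¹) v = v * ρ g p := fun g v => by
    rcases hp' ((ρ g).symm v) with e | e
    · left; simp [e]
    · right; simp [e]
  have hq' : ∀ g, ρ (g * t * g⁻¹) (ρ g p) = ρ g p := fun g => by simp [hp]
  have K : ∀ g ∈ A, g ∉ M → ρ t (ρ g p) ≠ ρ g p := fun g hg hgM e => by
    have h1 : zpowers (ρ g p) ≤ fixSub (ρ t) := zpowers_le.2 e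
    have h2 : IsPGroup 2 (closure {ρ t, ρ (g * t * g⁻¹)}) := by
      refine isPGroup_of_chain4 hV2 h1 bot_le fun δ hδ => Chain4.closure h1 bot_le ?_ hδ
      have k : ∀ v, v⁻¹ * ρ (g * t * g⁻¹) v ∈ zpowers (ρ g p) := fun v => by
        rcases hq g v with e | e <;> rw [e] <;> simp
      rintro _ (rfl | rfl)
      · refine ⟨fun v _ => ?_, TrivOn.of_fixed (fun _ hv => hv) _,
          TrivOn.of_fixed (fun _ hv => h1 hv) _, TrivOn.of_fixed (fun v hv => by simp_all) _⟩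
        rcases hp' v with e | e <;> simp [e, mem_fixSub, hp]
      · exact ⟨fun v _ => h1 (k v), fun v _ => k v, trivOn_zpowers_bot (hq' g),
          TrivOn.of_fixed (fun v hv => by simp_all) _⟩
    refine hgM (h.mem_of_isPGroup (R := (closure {ρ t, ρ (g * t * g⁻¹)}).comap ρ ⊓ A)
      (fun x => ?_) inf_le_right ht htI ht htI hg ⟨left_mem_closure_pair _ _, htA⟩
      ⟨right_mem_closure_pair _ _, h.conj_mem_A ht hg⟩)
    obtain ⟨k, hk⟩ := h2 ⟨ρ x, x.2.1⟩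
    obtain ⟨l, hl⟩ := h.exists_pow_eq_one (h.I_le ((hρ _ (pow_mem x.2.2 (2 ^ k))).1
      ((map_pow ρ _ _).trans (congrArg Subtype.val hk))))
    exact ⟨k + l, Subtype.ext (by rw [pow_add, pow_mul]; exact hl)⟩
  obtain ⟨β, hβ, hβM⟩ := h.exists_not_mem
  have K1 := K β hβ hβM
  have K2 : ρ (β * t * β⁻¹) p ≠ p := fun e => K β⁻¹ (inv_mem hβ) (mt inv_mem_iff.1 hβM) (by
    simpa using congrArg (ρ β).symm e)
  have K3 : ∀ x ∈ T, x ∉ I → ρ (β * t * β⁻¹) (ρ x (ρ β p)) ≠ ρ x (ρ β p) := fun x hx hxI e =>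
    K (β⁻¹ * x * β) (by simpa using h.conj_mem_A hx (inv_mem hβ))
      (fun e' => hβM (inv_mem_iff.1 (h.mem_of_conj_mem hx hxI (inv_mem hβ) (by simpa using e'))))
      (by simpa using congrArg (ρ β).symm e)
  have K4 : ∀ x ∈ T, x ∉ I → ρ x = ρ t := fun x hx hxI => by
    by_contra e
    have h1 := (hp' _).resolve_left (K (x * β) (mul_mem (h.mem_A hx) hβ)
      fun e => hβM ((mul_mem_cancel_left (h.le_M hx)).1 e))
    refine K3 (t * x) (mul_mem ht hx) (fun e' => e ?_) ?_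
    · have := (hρ _ (mul_mem htA (h.mem_A hx))).2 e'
      rw [map_mul, ← hτ] at this
      exact mul_left_cancel this
    · simp only [map_mul ρ t x, map_mul ρ x β, MulAut.mul_apply] at h1 ⊢
      rw [h1]
      exact fix_mul hV (hq β) (K3 x hx hxI) K2
  have huA := h.conj_mem_A ht hβ
  have hυ : ρ (β * t * β⁻¹) * ρ (β * t * β⁻¹) = 1 := by
    rw [← map_mul, conj_mul, map_mul, map_mul, map_mul, hτ, mul_one, map_inv, mul_inv_cancel]
  have hu := hq β
  have hu' := hq' β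
  generalize β * t * β⁻¹ = u at *
  generalize ρ β p = q at *
  have e1 := (hp' q).resolve_left K1
  have e2 := (hu p).resolve_left K2
  have e3 : ρ t (ρ u p) = q := by rw [e2, map_mul, hp, e1, mul_comm q, ← mul_assoc, hV, one_mul]
  have e4 : ρ t (ρ u q) = q * p := by rw [hu', e1]
  have h3 : ρ (t * u) ^ 3 = 1 := by
    have c : ∀ v, v ∈ fixSub (ρ (t * u) ^ 3) ↔ ρ t (ρ u (ρ t (ρ u (ρ t (ρ u v))))) = v := by
      simp [mem_fixSub, pow_succ]
    have c1 : p ∈ fixSub (ρ (t * u) ^ 3) := (c p).2 (by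
      rw [e3, e4, map_mul, map_mul, e3, e4, mul_right_comm, hV, one_mul])
    have c2 : q ∈ fixSub (ρ (t * u) ^ 3) := (c q).2 (by
      rw [e4, map_mul, map_mul, e3, e4, mul_right_comm, hV, one_mul, e3])
    have c3 : ∀ v, ρ t v = v → v ∈ fixSub (ρ (t * u) ^ 3) := fun v hv => by
      by_cases h' : ρ u v = v
      · exact (c v).2 (by simp only [h', hv])
      · have := fix_mul hV hu h' K2
        exact (mul_mem_cancel_right c1).1 ((c _).2 (by simp only [this, map_mul (ρ t), hv, hp]))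
    refine MulEquiv.ext fun v => (?_ : v ∈ fixSub _)
    by_cases h' : ρ t v = v
    · exact c3 v h'
    · exact (mul_mem_cancel_right c2).1 (c3 _ (fix_mul hV hp' h' K1))
  obtain ⟨k, hk⟩ := h.exists_pow_eq_one (h.I_le ((hρ _ (pow_mem (mul_mem htA huA) 3)).1
    ((map_pow ρ _ _).trans h3)))
  obtain ⟨j, hj⟩ : ∃ j, 2 ^ k * 2 ^ k = 3 * j + 1 := ⟨2 ^ k * 2 ^ k / 3, by
    have : 2 ^ k * 2 ^ k % 3 = 1 := by rw [← mul_pow, Nat.pow_mod]; simp
    omega⟩
  have hα : ρ ((t * u) ^ (3 * j + 1)) = ρ t * ρ u := by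
    rw [map_pow, pow_succ, pow_mul, h3, one_pow, one_mul, map_mul]
  have hαA := pow_mem (mul_mem htA huA) (3 * j + 1)
  refine ⟨(t * u) ^ (3 * j + 1), ?_, fun e => K1 ?_, fun s hs hsI => ?_⟩
  · rw [← hj, ← pow_mul, mul_comm _ 3, ← mul_assoc, pow_mul, pow_mul, hk, one_pow]
  · rw [e, map_one] at hα
    have : p = q := by rw [← e3, ← MulAut.mul_apply, ← hα]; rfl
    rw [← this, hp]
  · refine (hρ _ (mul_mem (mul_mem (mul_mem (h.mem_A hs) hαA) (inv_mem (h.mem_A hs))) hαA)).1 ?_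
    rw [map_mul, map_mul, map_mul, map_inv, K4 s hs hsI, hα, ← mul_assoc (ρ t), hτ, one_mul,
      mul_assoc, inv_mul_cancel_left, hυ]

theorem exists_three' {E : Type*} [Group E] [Finite E] (hE : IsPGroup 2 E)
    {T M A : Subgroup (MulAut E)} (h : EssData 2 T M A)
    (hc : Nat.card E ≤ 8 * Nat.card (Phi 2 (⊤ : Subgroup E))) :
    ∃ α : MulAut E, α ^ 3 = 1 ∧ α ≠ 1 ∧ ∀ s ∈ T, s ∉ Inn E → s * α * s⁻¹ * α ∈ Inn E := by
  letI : CommGroup (E ⧸ Phi 2 (⊤ : Subgroup E)) :=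
    { (inferInstance : Group (E ⧸ Phi 2 (⊤ : Subgroup E))) with
      mul_comm := by
        rintro ⟨a⟩ ⟨b⟩
        exact QuotientGroup.eq.2 (by
          simpa [commutatorElement_def, mul_assoc] using
            commutator_mem_Phi (p := 2) (mem_top b⁻¹) (mem_top a⁻¹)) }
  refine exists_three h (quotHom (MonoidHom.id _) (Phi 2 ⊤)
    fun α => (AInv.top ⊤).Phi α trivial) (fun α hα => ⟨fun e => ?_, ?_⟩) ?_ ?_
  · refine h.rad.mem_inn_of_chain1 hE hα fun x _ => QuotientGroup.eq.1 ?_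
    exact (congrArg (fun β : MulAut (E ⧸ Phi 2 (⊤ : Subgroup E)) => β x) e).symm
  · rintro ⟨q, rfl⟩
    refine MulEquiv.ext ?_
    rintro ⟨x⟩
    change ((q * x * q⁻¹ : E) : E ⧸ Phi 2 (⊤ : Subgroup E)) = x
    rw [QuotientGroup.mk_mul, QuotientGroup.mk_mul, mul_comm (q : E ⧸ Phi 2 (⊤ : Subgroup E)),
      QuotientGroup.mk_inv, mul_inv_cancel_right]
  · rintro ⟨x⟩
    exact (QuotientGroup.eq_one_iff (x * x)).2 (pow_two x ▸ pow_mem_Phi trivial)
  · rw [card_eq_card_quotient_mul_card_subgroup (Phi 2 ⊤)] at hc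
    exact Nat.le_of_mul_le_mul_right hc Nat.card_pos

end Cfsg.Agent.H3.Bic
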