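import Cfsg.Agent.Lib.H3.Bic7

/-!
# An automorphism of order three of a `2`-group with a metacyclic subgroup of index two
-/

set_option autoImplicit false
set_option linter.unusedSectionVars false

namespace Cfsg.Agent.H3.Bic

open Subgroup Cfsg.Agent.H9
open scoped commutatorElement

variable {E : Type*} [Group E] {α s : MulAut E} {K L N P : Subgroup E} {c g q u v w x y z : E}

/-- The commutator subgroup `[E, α]`. -/
def WW (α : MulAut E) : Subgroup E := closure (Set.range fun x => x⁻¹ * α x)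

theorem mem_WW (x : E) : x⁻¹ * α x ∈ WW α := subset_closure ⟨x, rfl⟩

theorem map_mem_WW (hx : x ∈ WW α) : α x ∈ WW α := by simpa using mul_mem hx (mem_WW x)

instance WW_normal : (WW α).Normal := ⟨fun x hx g => ((closure_le _).2 (by
  rintro _ ⟨y, rfl⟩
  simpa [mul_assoc] using mul_mem (mem_WW (α := α) (y * g⁻¹)) (inv_mem (mem_WW g⁻¹))) :
    WW α ≤ (WW α).comap (MulAut.conj g).toMonoidHom) hx⟩

instance PhiW_normal : (Phi 2 (WW α)).Normal := Phi_normal _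

theorem map_mem_Phi (h : ∀ x ∈ N, α x ∈ N) (hx : x ∈ Phi 2 N) : α x ∈ Phi 2 N :=
  Phi_mono (map_le_iff_le_comap.2 h) ((map_Phi (α : E →* E) N).le (mem_map_of_mem _ hx))

theorem card_le_inf [Finite E] [K.Normal] (h : K.index ∣ 2) (P : Subgroup E) :
    Nat.card P ≤ 2 * Nat.card (K ⊓ P : Subgroup E) :=
  card_le_of_dvd inf_le_right two_pos
    (by rw [inf_relIndex_right]; exact (relIndex_dvd_index_of_normal K P).trans h)

theorem card_le_eight [Finite E] [K.Normal] (h : K.index ∣ 2) (hK : Meta K) (P : Subgroup E) :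
    Nat.card P ≤ 8 * Nat.card (Phi 2 P) := by
  have h1 := card_le_inf h P
  have h2 := card_le_of_dvd (Phi_le _) (by norm_num) (hK.of_le (inf_le_left (b := P))).gen2.dvd
  have h3 := card_le_of_le (Phi_mono (p := 2) (inf_le_right : K ⊓ P ≤ P))
  omega

theorem mem_or_of_sup [Finite E] (hx : x ∈ normalizer (K : Set E)) (h2 : x ^ 2 ∈ K)
    (hg : g ∈ K ⊔ zpowers x) : g ∈ K ∨ x⁻¹ * g ∈ K := by
  by_cases h : x ∈ K
  · left; rwa [sup_eq_left.2 (zpowers_le.2 h)] at hg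
  exact or_iff_not_imp_left.2 (mul_inv_mem_of_two le_sup_left
    (by rw [card_sup_zpowers hx h h2, mul_comm]) (mem_sup_right (mem_zpowers x)) hg h)

/-- An automorphism of order three. -/
structure Th (α : MulAut E) (K : Subgroup E) : Prop where
  pg : IsPGroup 2 E
  a3 : α ^ 3 = 1
  a1 : α ≠ 1
  met : Meta K
  phi : Phi 2 ⊤ ≤ K
  idx : K.index ∣ 2

namespace Th

variable [Finite E] (H : Th α K)
include H

theorem sub (P : Subgroup E) : IsPGroup 2 P := H.pg.to_subgroup P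

theorem cube (x : E) : α (α (α x)) = x := by
  simpa [pow_succ] using congrArg (fun β : MulAut E => β x) H.a3

theorem mem_of_map (h : ∀ x ∈ N, α x ∈ N) (hx : α x ∈ N) : x ∈ N := H.cube x ▸ h _ (h _ hx)

theorem dec (x : E) : ∃ c, c⁻¹ * x ∈ WW α ∧ α c = c := by
  haveI := Fact.mk Nat.prime_three
  obtain ⟨c, h1, h2⟩ := exists_fixed_in_coset (q := 3) (H := zpowers α) (K := WW α) (x := x)
    (IsPGroup.of_card (n := 1) (card_zpowers_of_pow_prime H.a3 H.a1)) (by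
      obtain ⟨n, hn⟩ := exists_card_eq_pow (H.sub (WW α))
      rw [hn]
      exact fun h => absurd (Nat.prime_three.dvd_of_dvd_pow h) (by norm_num))
    (AInv.zpowers fun _ => map_mem_WW) fun β hβ =>
      TrivOn.closure (s := {α}) (L := ⊤) (by rintro _ rfl x; exact map_mem_WW)
        (by rintro _ rfl x _; exact mem_WW x) (zpowers_eq_closure α ▸ hβ) x trivial
  exact ⟨c, h1, h2 α (mem_zpowers α)⟩

theorem le_of_triv (h : ∀ w ∈ WW α, w⁻¹ * α w ∈ N) : WW α ≤ N := (closure_le _).2 (by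
  rintro _ ⟨x, rfl⟩
  obtain ⟨c, h1, h2⟩ := H.dec x
  simpa [h2, mul_assoc] using h _ h1)

theorem norm [N.Normal] (h : ⁅WW α, WW α⁆ ≤ N) (hw : w ∈ WW α) : w * α w * α (α w) ∈ N := by
  have c : ∀ u ∈ WW α, ∀ v ∈ WW α, Commute (u : E ⧸ N) v := fun u hu v hv =>
    commutatorElement_eq_one_iff_commute.1
      ((QuotientGroup.eq_one_iff ⁅u, v⁆).2 (h (commutator_mem_commutator hu hv)))
  let X : Subgroup E :=
    { carrier := {w | w ∈ WW α ∧ (w : E ⧸ N) * α w * α (α w) = 1}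
      one_mem' := ⟨one_mem _, by simp⟩
      mul_mem' := fun {u v} hu hv => ⟨mul_mem hu.1 hv.1, by
        simp only [map_mul, QuotientGroup.mk_mul]
        rw [(c v hv.1 _ (map_mem_WW hu.1)).mul_mul_mul_comm,
          ((c v hv.1 _ (map_mem_WW (map_mem_WW hu.1))).mul_left
            (c _ (map_mem_WW hv.1) _ (map_mem_WW (map_mem_WW hu.1)))).mul_mul_mul_comm,
          hu.2, hv.2, mul_one]⟩
      inv_mem' := fun {u} hu => ⟨inv_mem hu.1, by
        simp only [map_inv, QuotientGroup.mk_inv]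
        rw [← (c u hu.1 _ (map_mem_WW hu.1)).mul_inv,
          ← ((c u hu.1 _ (map_mem_WW (map_mem_WW hu.1))).mul_left
            (c _ (map_mem_WW hu.1) _ (map_mem_WW (map_mem_WW hu.1)))).mul_inv, hu.2, inv_one]⟩ }
  exact (QuotientGroup.eq_one_iff _).1 (H.le_of_triv (N := X) (fun w hw =>
    ⟨mem_WW w, by simp [H.cube]⟩) hw).2

theorem fpf [N.Normal] (h : ⁅WW α, WW α⁆ ≤ N) (h' : ∀ x ∈ N, α x ∈ N) (hw : w ∈ WW α)
    (h1 : w⁻¹ * α w ∈ N) : w ∈ N := by
  refine mem_of_odd_zpow H.pg (i := 3) (by decide) ((QuotientGroup.eq_one_iff _).1 ?_)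
  have h2 := (QuotientGroup.eq_one_iff _).2 (H.norm h hw)
  have h3 := h' _ h1
  rw [map_mul, map_inv] at h3
  rw [QuotientGroup.mk_mul, QuotientGroup.mk_mul, ← QuotientGroup.eq.2 h3,
    ← QuotientGroup.eq.2 h1] at h2
  rw [QuotientGroup.mk_zpow, ← h2, zpow_ofNat, pow_three']

theorem phi_map (hx : x ∈ Phi 2 (WW α)) : α x ∈ Phi 2 (WW α) :=
  map_mem_Phi (fun _ => map_mem_WW) hx

theorem fpf' (hw : w ∈ WW α) (h1 : w⁻¹ * α w ∈ Phi 2 (WW α)) : w ∈ Phi 2 (WW α) :=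
  H.fpf (commutator_le_Phi _) (fun _ => H.phi_map) hw h1

theorem map_not (hw : w ∉ Phi 2 (WW α)) : α w ∉ Phi 2 (WW α) :=
  mt (H.mem_of_map fun _ => H.phi_map) hw

theorem map_not' (hw : w ∈ WW α) (hw' : w ∉ Phi 2 (WW α)) : α w ∉ Phi 2 (WW α) ⊔ zpowers w :=
  fun e => (mem_or_of_sup (le_normalizer_Phi _ hw) (pow_mem_Phi hw) e).elim (H.map_not hw')
    (mt (H.fpf' hw) hw')

theorem mul_not (hw : w ∈ WW α) (hw' : w ∉ Phi 2 (WW α)) : w * α w ∉ Phi 2 (WW α) := fun e =>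
  H.map_not' hw hw' (by simpa using mul_mem (inv_mem (mem_sup_right (mem_zpowers w))) (mem_sup_left e))

theorem gen (hw : w ∈ WW α) (hw' : w ∉ Phi 2 (WW α)) : zpowers w ⊔ zpowers (α w) = WW α := by
  haveI := normal_of_le ((commutator_le_Phi _).trans H.phi)
  have h1 := mul_card_le_of_lt (H.sub _) (lt_sup_zpowers hw')
  have h2 := mul_card_le_of_lt (H.sub _) (lt_sup_zpowers (H.map_not' hw hw'))
  have h3 := card_le_eight H.idx H.met (WW α)
  have h4 : Phi 2 (WW α) ⊔ zpowers w ⊔ zpowers (α w) ≤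
      (Phi 2 (WW α) ⊔ zpowers w ⊔ zpowers (α w)).comap (α : E →* E) := by
    refine sup_le (sup_le (fun x hx => mem_sup_left (mem_sup_left (H.phi_map hx)))
      (zpowers_le.2 (mem_sup_right (mem_zpowers _)))) (zpowers_le.2 ?_)
    simpa [mul_assoc] using mul_mem (inv_mem (mul_mem (mem_sup_left (mem_sup_right (mem_zpowers w)))
      (mem_sup_right (mem_zpowers (α w))))) (mem_sup_left (mem_sup_left
        (H.norm (commutator_le_Phi (p := 2) _) hw)))
  refine eq_of_le_sup_Phi (H.sub _) (sup_le (zpowers_le.2 hw) (zpowers_le.2 (map_mem_WW hw))) ?_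
  rw [sup_comm, ← sup_assoc]
  refine H.le_of_triv fun v hv => ?_
  by_cases h : v ∈ Phi 2 (WW α) ⊔ zpowers w ⊔ zpowers (α w)
  · exact mul_mem (inv_mem h) (h4 h)
  · exact mul_inv_mem_of_two (sup_le (sup_le (Phi_le _) (zpowers_le.2 hw))
      (zpowers_le.2 (map_mem_WW hw))) (by omega) hv (map_mem_WW hv) h (mt (H.mem_of_map h4) h)

theorem le_of_mem (hw : w ∈ WW α) (hw' : w ∉ Phi 2 (WW α)) (h1 : w ∈ N) (h2 : α w ∈ N) :
    WW α ≤ N := (H.gen hw hw').ge.trans (sup_le (zpowers_le.2 h1) (zpowers_le.2 h2))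

theorem ne_bot : WW α ≠ ⊥ := fun e => H.a1 (MulEquiv.ext fun x =>
  (inv_mul_eq_one.1 (mem_bot.1 (e.le (mem_WW x)))).symm)

theorem exists_not : ∃ w ∈ WW α, w ∉ Phi 2 (WW α) :=
  SetLike.exists_of_lt (Phi_lt (H.sub _) H.ne_bot)

theorem idxW : (Phi 2 (WW α)).relIndex (WW α) = 4 := by
  obtain ⟨w, hw, hw'⟩ := H.exists_not
  refine relIndex_eq_four (H.sub _) (Gen2.dvd ⟨_, _, H.gen hw hw'⟩) fun u e => ?_
  have hu := e.le (mem_zpowers u)
  have hu' : u ∉ Phi 2 (WW α) := fun h => hw' ((e.ge.trans (zpowers_le.2 h)) hw)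
  exact H.map_not' hu hu' (mem_sup_right (e.ge (map_mem_WW hu)))

theorem metaW : Meta (WW α) := by
  obtain ⟨w, hw, hw', hK⟩ : ∃ w ∈ WW α, w ∉ Phi 2 (WW α) ∧ w ∈ K := by
    obtain ⟨w, hw, hw'⟩ := H.exists_not
    by_cases h1 : w ∈ K
    · exact ⟨w, hw, hw', h1⟩
    by_cases h2 : α w ∈ K
    · exact ⟨_, map_mem_WW hw, H.map_not hw', h2⟩
    exact ⟨_, mem_WW w, mt (H.fpf' hw) hw', mul_inv_mem_of_two le_top
      (card_le_of_dvd le_top two_pos (relIndex_top_right K ▸ H.idx)) trivial trivial h1 h2⟩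
  have h1 : Gen2 (Phi 2 (WW α) ⊔ zpowers w) :=
    (H.met.of_le (sup_le ((Phi_mono le_top).trans H.phi) (zpowers_le.2 hK))).gen2
  have k : ∀ w, Gen2 (Phi 2 (WW α) ⊔ zpowers w) → Gen2 (Phi 2 (WW α) ⊔ zpowers (α w)) :=
    fun w h => by
      simpa only [Subgroup.map_sup, MonoidHom.map_zpowers, MonoidHom.coe_coe, (AInv.zpowers
        fun _ => H.phi_map).map_eq (mem_zpowers α)] using h.map (α : E →* E)
  by_contra hn
  obtain ⟨-, -, -, -, -, h⟩ := b2' (H.sub _) (H.gen hw hw') hn h1 (k w h1)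
  refine h ?_
  rw [← zpowers_inv, sup_zpowers_congr (b := α (α w))
    (by simpa using H.norm (commutator_le_Phi (p := 2) _) hw)]
  exact k _ (k w h1)

theorem cases : (∀ u ∈ WW α, ∀ v ∈ WW α, u * v = v * u) ∨ Nat.card (WW α) = 8 := by
  obtain ⟨a, b, h⟩ := H.metaW
  refine (Irr.metacyclic (p := 2) (B := zpowers α) ⟨Phi_le _, le_rfl, H.idxW,
    AInv.zpowers fun _ => map_mem_WW, AInv.zpowers fun _ => H.phi_map, fun M hM h1 h2 => ?_⟩
    (H.sub _) h).imp id And.right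
  refine or_iff_not_imp_left.2 fun e => le_antisymm h2 ?_
  obtain ⟨w, hw, hw'⟩ := SetLike.exists_of_lt (lt_of_le_of_ne h1 (Ne.symm e))
  exact H.le_of_mem (h2 hw) hw' hw (hM α (mem_zpowers α) w hw)

theorem comm_mem_Phi (hw : w ∈ WW α) (g : E) : ⁅w, g⁆ ∈ Phi 2 (WW α) := by
  by_contra h
  have h1 := commutator_lt_of_ne_bot (H.sub ⊤) le_top (normalizer_eq_top _).ge H.ne_bot
  have h2 := commutator_mem_commutator hw (mem_top g)
  refine h1.not_ge (H.le_of_mem (h1.le h2) h h2 ?_)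
  rw [map_commutatorElement]
  exact commutator_mem_commutator (map_mem_WW hw) trivial

theorem map_mem (hs : s * α * s⁻¹ * α ∈ Inn E) (hw : w ∈ WW α) : s w ∈ WW α := by
  obtain ⟨q, hq⟩ := hs
  have e : s * α⁻¹ * s⁻¹ = α * MulAut.conj q⁻¹ := by rw [map_inv, hq]; group
  have k : ∀ (n : ℕ) (x : E),
      (((s * α⁻¹ * s⁻¹) ^ n) x : E ⧸ WW α) = (q⁻¹ ^ n * x * (q⁻¹ ^ n)⁻¹ : E) := fun n => by
    induction n with
    | zero => simp
    | succ n ih =>
      intro x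
      rw [pow_succ, MulAut.mul_apply, ih, e, MulAut.mul_apply]
      simp only [QuotientGroup.mk_mul]
      rw [← QuotientGroup.eq.2 (mem_WW _), MulAut.conj_apply, pow_succ]
      simp only [QuotientGroup.mk_mul, mul_inv_rev, mul_assoc]
  obtain ⟨m, hm⟩ := H.pg q⁻¹
  obtain ⟨j, hj⟩ : ∃ j, 2 ^ m * (2 ^ m * 2) = 3 * j + 2 := ⟨2 ^ m * (2 ^ m * 2) / 3, by
    have : 2 ^ m * 2 ^ m % 3 = 1 := by rw [← mul_pow, Nat.pow_mod]; simp
    rw [← mul_assoc]
    omega⟩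
  refine ((closure_le _).2 ?_ : WW α ≤ (WW α).comap (s : E →* E)) hw
  rintro _ ⟨x, rfl⟩
  have h1 := k (2 ^ m * (2 ^ m * 2)) (s x)
  rw [pow_mul q⁻¹, hm, one_pow, hj, conj_pow, pow_add, pow_mul, inv_pow, H.a3, inv_one, one_pow,
    one_mul, show α⁻¹ ^ 2 = α by
      rw [inv_pow, inv_eq_iff_mul_eq_one, ← pow_succ, H.a3]] at h1
  simpa using QuotientGroup.eq.1 h1.symm

theorem triv (hs : s * α * s⁻¹ * α ∈ Inn E) {B : Subgroup (MulAut E)} (hL : AInv B L)
    (hN : AInv B N) (h1 : α ∈ B) (h2 : s ∈ B) (h3 : ∀ q, TrivOn (MulAut.conj q) L N)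
    (h4 : TrivOn s L N) : TrivOn α L N := by
  have hB := mul_mem (mul_mem (mul_mem h2 h1) (inv_mem h2)) h1
  obtain ⟨q, hq⟩ := hs
  have k1 : s ∈ stab B L N hN := mem_stab.2 ⟨h2, h4⟩
  have k2 : s * α * s⁻¹ * α ∈ stab B L N hN := mem_stab.2 ⟨hB, hq ▸ h3 q⟩
  have k3 := mul_mem ((stab_normalIn hL hN).2 α h1 s k1) (mul_mem (inv_mem k1) k2)
  refine (mem_stab.1 (?_ : α ∈ stab B L N hN)).2
  rw [show α * s * α⁻¹ * (s⁻¹ * (s * α * s⁻¹ * α)) = α * α by group] at k3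
  convert mul_mem k3 k3 using 1
  calc α = α ^ 3 * α := by rw [H.a3, one_mul]
    _ = _ := by simp only [pow_succ, pow_zero, one_mul, mul_assoc]

end Th

end Cfsg.Agent.H3.Bic
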