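import Cfsg.Agent.Lib.H3.Bic8

/-!
# Saturated fusion systems on bicyclic `2`-groups with noncyclic derived subgroup are inner
-/

set_option autoImplicit false
set_option linter.unusedSectionVars false

namespace Cfsg.Agent.H3.Bic

open Subgroup Cfsg.Agent.H9
open scoped commutatorElement

variable {E : Type*} [Group E] {α s : MulAut E} {K L N P : Subgroup E} {c g i q u v w x y z : E}

namespace Th

variable [Finite E] (H : Th α K)
include H

theorem aInv (hs : s * α * s⁻¹ * α ∈ Inn E) : AInv (closure {α, s}) (WW α) :=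
  AInv.of_closure (by
    rintro _ (rfl | rfl) x
    exacts [map_mem_WW, H.map_mem hs])

theorem act (hs : s * α * s⁻¹ * α ∈ Inn E) : ∃ j ∈ WW α, j * s j⁻¹ ∉ Phi 2 (WW α) := by
  by_contra! h
  obtain ⟨w, hw, hw'⟩ := H.exists_not
  exact hw' (H.fpf' hw (H.triv hs (H.aInv hs) (H.aInv hs).Phi (left_mem_closure_pair _ _)
    (right_mem_closure_pair _ _) (fun q x hx => by
      simpa [commutatorElement_def, mul_assoc] using H.comm_mem_Phi (inv_mem hx) q)
    (fun x hx => by simpa using h _ (inv_mem hx)) w hw))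

section
variable (hab : ∀ u ∈ WW α, ∀ v ∈ WW α, u * v = v * u)
include hab

theorem disj (h : α c = c) (hc : c ∈ WW α) : c = 1 :=
  mem_bot.1 (H.fpf (N := ⊥) (commutator_le.2 fun u hu v hv =>
    commutatorElement_eq_one_iff_mul_comm.2 (hab u hu v hv)) (by simp) hc (by simp [h]))

theorem hom (hi : i ∈ WW α) (hi' : i ∉ Phi 2 (WW α)) (h : i ^ 2 = 1) (hw : w ∈ WW α) : w ^ 2 = 1 :=
  ((mem_omega hab).1 (H.le_of_mem hi hi' (mem_omegaOne hi h)
    (mem_omegaOne (map_mem_WW hi) (by rw [← map_pow, h, map_one])) hw)).2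

theorem exists_z : ∃ z ∈ omegaOne 2 (WW α), z ≠ 1 ∧ omegaOne 2 (WW α) ≤ center E := by
  haveI : (omegaOne 2 (WW α)).Normal := ⟨fun v hv g => mem_omegaOne
    (Normal.conj_mem inferInstance _ (omegaOne_le _ hv) g) (by
      rw [conj_pow, ((mem_omega hab).1 hv).2, mul_one, mul_inv_cancel])⟩
  have h4 := (card_omega hab).trans H.idxW
  obtain ⟨z, hz, h1, h2, h3⟩ := exists_mem_centralizer_ne_one (H.sub (omegaOne 2 (WW α))) (H.sub ⊤)
    (normalizer_eq_top _).ge fun e => by rw [e, card_bot] at h4; omega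
  have h5 : z ∈ center E := mem_center_iff.2 fun g => h3 g trivial
  have h6 : α z ∉ zpowers z := fun e => (mem_zpowers_two h2 e).elim (by simpa using h1)
    fun e => h1 (H.disj hab e (omegaOne_le _ hz))
  have h7 := mul_card_le_of_lt (H.sub _) (lt_sup_zpowers h6)
  rw [card_zpowers_of_pow_prime h2 h1] at h7
  refine ⟨z, hz, h1, (eq_of_le_of_card_ge (sup_le (zpowers_le.2 hz) (zpowers_le.2 (mem_omegaOne
    (map_mem_WW (omegaOne_le _ hz)) (by rw [← map_pow, h2, map_one])))) (by omega)).ge.trans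
    (sup_le (zpowers_le.2 h5) (zpowers_le.2 (map_mem_center h5 α)))⟩

theorem actV (hs : s * α * s⁻¹ * α ∈ Inn E) : ∃ v ∈ WW α, v ^ 2 = 1 ∧ s v ≠ v := by
  by_contra! h
  obtain ⟨z, hz, h1, h2⟩ := H.exists_z hab
  exact h1 (H.disj hab (TrivOn.bot_iff.1 (H.triv hs (H.aInv hs).omegaOne (AInv.bot _)
    (left_mem_closure_pair _ _) (right_mem_closure_pair _ _) (fun q => TrivOn.bot_iff.2 fun x hx => by
      rw [MulAut.conj_apply, mem_center_iff.1 (h2 hx) q, mul_inv_cancel_right])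
    (TrivOn.bot_iff.2 fun x hx => h x (omegaOne_le _ hx) ((mem_omega hab).1 hx).2)) z hz)
    (omegaOne_le _ hz))

end

theorem quat (hn : ¬ ∀ u ∈ WW α, ∀ v ∈ WW α, u * v = v * u) :
    ∃ z : E, z ≠ 1 ∧ (∀ w ∈ Phi 2 (WW α), w = 1 ∨ w = z) ∧
      (∀ w ∈ WW α, w ∉ Phi 2 (WW α) → w ^ 2 = z) ∧ ∀ v ∈ WW α, ∀ c, α c = c → v * c = c * v := by
  have h1 := relIndex_mul_relIndex ⊥ _ _ bot_le (Phi_le (p := 2) (WW α))
  rw [relIndex_bot_left, relIndex_bot_left, H.cases.resolve_left hn, H.idxW] at h1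
  have h2 : Nat.card (Phi 2 (WW α)) = 2 := by omega
  obtain ⟨z, hz, hz1⟩ := exists_not_mem_of_card (K := ⊥) (L := Phi 2 (WW α))
    (by rw [h2, card_bot]; omega)
  rw [mem_bot] at hz1
  have h3 : ∀ w ∈ Phi 2 (WW α), w = 1 ∨ w = z := fun w hw =>
    or_iff_not_imp_left.2 fun e => eq_of_card_two h2 hw e hz hz1
  have h4 : ∀ w ∈ Phi 2 (WW α), ∀ g, Commute g w := fun w hw g =>
    commute_of_card_prime (p := 2) h2 (H.sub ⊤) (normalizer_eq_top _).ge trivial hw
  have h5 : ∀ w ∈ Phi 2 (WW α), w ^ 2 = 1 := fun w hw => pow_eq_one_of_card_eq h2 hw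
  refine ⟨z, hz1, h3, fun w hw hw' => (h3 _ (pow_mem_Phi hw)).resolve_left fun e => hn ?_,
    fun v hv c hc => ?_⟩
  · have e1 : α w ^ 2 = 1 := by rw [← map_pow, e, map_one]
    have e2 : α (α w) ^ 2 = 1 := by rw [← map_pow, e1, map_one]
    have e3 := H.norm (commutator_le_Phi (p := 2) _) hw
    have e4 : (w * α w) ^ 2 = 1 := by
      rw [← mul_inv_cancel_right (w * α w) (α (α w)), (h4 _ e3 _).symm.mul_pow, h5 _ e3, inv_pow, e2,
        inv_one, mul_one]
    have e5 : Commute w (α w) := by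
      rw [mul_sq', e, e1, one_mul, mul_one, mul_assoc, inv_mul_eq_one, right_eq_mul] at e4
      exact (commutatorElement_eq_one_iff_commute.1 e4).symm
    exact fun a ha b hb => mul_comm_of_le_sup_zpowers (K := zpowers w) (map_mem_WW hw)
      (fun k hk h hh => (mem_centralizer_iff.1 (H.le_of_mem (N := centralizer (zpowers w)) hw hw'
        (mem_centralizer_iff.2 fun k hk => zpowers_comm k hk w (mem_zpowers w))
        (mem_centralizer_iff.2 (by rintro _ ⟨k, rfl⟩; exact (e5.zpow_left k).eq)) hh) k hk))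
      (H.gen hw hw').ge ha hb
  · have k : ∀ w, w ∈ centralizer {c} → α w ∈ centralizer {c} := fun w hw =>
      mem_centralizer_singleton_iff.2 (by
        simpa [hc] using congrArg α (mem_centralizer_singleton_iff.1 hw))
    obtain ⟨w, hw, hw', hwc⟩ : ∃ w ∈ WW α, w ∉ Phi 2 (WW α) ∧ w ∈ centralizer {c} := by
      obtain ⟨w, hw, hw'⟩ := H.exists_not
      rcases h3 _ (H.comm_mem_Phi hw c) with e | e
      · exact ⟨w, hw, hw', mem_centralizer_singleton_iff.2
          (commutatorElement_eq_one_iff_mul_comm.1 e)⟩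
      refine ⟨_, mul_mem hw (map_mem_WW hw), H.mul_not hw hw', mem_centralizer_singleton_iff.2
        (commutatorElement_eq_one_iff_mul_comm.1 ?_)⟩
      have e1 : ⁅α w, c⁆ = z := by
        rw [← hc, ← map_commutatorElement, e]
        exact (h3 _ (H.phi_map hz)).resolve_left (by simpa using hz1)
      rw [commutator_mul_left_of_commute (e1 ▸ h4 z hz w), e, e1, ← pow_two, h5 z hz]
    exact mem_centralizer_singleton_iff.1 (H.le_of_mem hw hw' hwc (k w hwc) hv)

end Th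

theorem Meta.of_map {G : Type*} [Group G] [Finite E] {f : E →* G} (hf : Function.Injective f)
    (h : Meta (N.map f)) : Meta N := by
  obtain ⟨u, v, h⟩ := h
  have h1 := conj_mem_of_mem_normalizer (h.norm h.b_mem) (mem_zpowers u)
  obtain ⟨u, -, rfl⟩ := h.a_mem
  obtain ⟨v, -, rfl⟩ := h.b_mem
  refine ⟨u, v, metaGen_of (map_injective hf (by
    rw [Subgroup.map_sup, MonoidHom.map_zpowers, MonoidHom.map_zpowers, h.sup_eq])) ?_⟩
  rwa [← MonoidHom.map_zpowers, ← map_inv, ← map_mul, ← map_mul, mem_map_iff_mem hf] at h1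

theorem BS.no_ess {G : Type*} [Group G] [Finite G] {a b y : G} (H : BS a b y) [Finite E]
    (f : E →* G) (hf : Function.Injective f) (hne : f.range ≠ ⊤) {T M A : Subgroup (MulAut E)}
    (h : EssData 2 T M A)
    (hT : ∀ g ∈ normalizer (f.range : Set G), ∃ s ∈ T, ∀ x, f (s x) = g * f x * g⁻¹)
    (hc : ∀ g, (∀ x, f x * g = g * f x) → g ∈ f.range) : False := by
  have hE : IsPGroup 2 E := H.pg.of_injective f hf
  haveI := normal_max b
  have k1 : ((Phi 2 ⊤ ⊔ zpowers b).comap f).index ∣ 2 := by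
    rw [index_comap]
    refine (relIndex_dvd_index_of_normal _ _).trans (Nat.dvd_of_mul_dvd_mul_left two_pos ?_)
    have := H.gen2.dvd
    rwa [← relIndex_mul_relIndex _ _ _ (le_sup_left (b := zpowers b)) le_top,
      relIndex_sup_zpowers (p := 2) ((normalizer_eq_top _).ge trivial)
      (fun e => H.bM (H.Phi_le_M e)) (pow_mem_Phi trivial), relIndex_top_right] at this
  have k2 := (H.met.of_le (map_comap_le f _)).of_map hf
  obtain ⟨α, h1, h2, h3⟩ := exists_three' hE h (by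
    simpa using card_le_eight k1 k2 ⊤)
  have H1 : Th α _ := ⟨hE, h1, h2, k2, map_le_iff_le_comap.1
    ((map_Phi f ⊤).le.trans (le_sup_of_le_left (Phi_mono le_top))), k1⟩
  have k3 : ∀ g ∈ normalizer (f.range : Set G), g ∉ f.range →
      ∃ s, s * α * s⁻¹ * α ∈ Inn E ∧ ∀ x, f (s x) = g * f x * g⁻¹ := fun g hg hg' => by
    obtain ⟨s, hs, e⟩ := hT g hg
    refine ⟨s, h3 s hs ?_, e⟩
    rintro ⟨q, rfl⟩
    refine hg' ((mul_mem_cancel_left (inv_mem (MonoidHom.mem_range.2 ⟨q, rfl⟩))).1 (hc _ fun x => ?_))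
    calc f x * ((f q)⁻¹ * g) = (f q)⁻¹ * f (MulAut.conj q x) * g := by simp [mul_assoc]
      _ = _ := by rw [e]; group
  have L : Loc f.range ((WW α).map f) ((fixSub α).map f) := by
    refine ⟨map_le_range _ _, map_le_range _ _, ?_, hne,
      fun g hg => mem_normalizer_of_conj_mem ?_, ?_, fun t ht ht' => ?_⟩
    · rintro _ ⟨x, rfl⟩
      obtain ⟨c, e1, e2⟩ := H1.dec x
      exact ⟨_, mem_map_of_mem f (Normal.conj_mem inferInstance _ e1 c), _, mem_map_of_mem f e2,
        by simp⟩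
    · rintro _ ⟨w, hw, rfl⟩
      by_cases hg' : g ∈ f.range
      · obtain ⟨q, rfl⟩ := hg'
        simpa using mem_map_of_mem f (Normal.conj_mem inferInstance _ hw q)
      · obtain ⟨s, hs, e⟩ := k3 g hg hg'
        exact e w ▸ mem_map_of_mem f (H1.map_mem hs hw)
    · rw [← map_Phi, relIndex_map_map_of_injective _ _ hf, H1.idxW]
    · obtain ⟨s, hs, e⟩ := k3 t ht ht'
      obtain ⟨j, hj, hj'⟩ := H1.act hs
      refine ⟨_, mem_map_of_mem f hj, fun e' => hj' ((mem_map_iff_mem hf).1 ?_)⟩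
      rwa [map_Phi, map_mul, e, map_inv, ← mul_assoc, ← mul_assoc]
  by_cases hab : ∀ u ∈ WW α, ∀ v ∈ WW α, u * v = v * u
  · refine LocA.false ⟨L, ?_, ?_, ?_, ?_, fun t ht ht' => ?_⟩ H
    · rintro _ ⟨u, hu, rfl⟩ _ ⟨v, hv, rfl⟩
      rw [← map_mul, hab u hu v hv, map_mul]
    · rintro _ ⟨c, hc, rfl⟩ hc'
      rw [H1.disj hab hc ((mem_map_iff_mem hf).1 hc'), map_one]
    · rintro _ ⟨i, hi, rfl⟩ hi' hi2 _ ⟨w, hw, rfl⟩
      rw [← map_Phi, mem_map_iff_mem hf] at hi'
      rw [← map_pow, H1.hom hab hi hi' ((map_eq_one_iff f hf).1 (map_pow f i 2 ▸ hi2)) hw, map_one]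
    · rintro _ ⟨v, hv, rfl⟩ hv2 _ ⟨c, -, rfl⟩
      obtain ⟨-, -, -, hz⟩ := H1.exists_z hab
      rw [← map_mul, ← mem_center_iff.1 (hz (mem_omegaOne hv
        ((map_eq_one_iff f hf).1 (map_pow f v 2 ▸ hv2)))) c, map_mul]
    · obtain ⟨s, hs, e⟩ := k3 t ht ht'
      obtain ⟨v, hv, e1, e2⟩ := H1.actV hab hs
      exact ⟨_, mem_map_of_mem f hv, by rw [← map_pow, e1, map_one], fun e' =>
        e2 (hf (by rw [e, ← e', mul_inv_cancel_right]))⟩
  · obtain ⟨z, e1, e2, e3, e4⟩ := H1.quat hab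
    refine LocQ.false (z := f z) ⟨L, ?_, mt (map_eq_one_iff f hf).1 e1, ?_, ?_⟩ H
    · rintro _ ⟨v, hv, rfl⟩ _ ⟨c, hc, rfl⟩
      rw [← map_mul, e4 v hv c hc, map_mul]
    · rw [← map_Phi]
      rintro _ ⟨w, hw, rfl⟩
      exact (e2 w hw).imp (fun e => by rw [e, map_one]) (congrArg f)
    · rintro _ ⟨w, hw, rfl⟩ hw'
      rw [← map_Phi, mem_map_iff_mem hf] at hw'
      rw [← map_pow, e3 w hw hw']

theorem BS.isPGroup_aut {G : Type*} [Group G] [Finite G] {a b y : G} (H : BS a b y)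
    (N : Subgroup (MulAut G)) : IsPGroup 2 N := by
  have h1 := (AInv.top N).commutator (AInv.top N)
  have h2 : AInv N (MM G) := fun α hα g hg => mem_cq.2 fun u hu => by
    simpa using h1.Phi α hα _ (mem_cq.1 hg _ (h1 _ (inv_mem hα) u hu))
  have h3 := card_sup_zpowers (p := 2) ((normalizer_eq_top _).ge trivial) H.aP (pow_mem_Phi trivial)
  rw [← H.M_eq H.aM H.aP] at h3
  have h4 := card_le_of_dvd (Phi_le _) (by norm_num) H.gen2.dvd
  have k : ∀ K L : Subgroup G, AInv N K → AInv N L → K ≤ L → Nat.card L ≤ 2 * Nat.card K →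
      ∀ α ∈ N, TrivOn α L K := fun K L hK hL h h' α hα x hx => by
    by_cases e : x ∈ K
    · exact mul_mem (inv_mem e) (hK α hα x e)
    · exact mul_inv_mem_of_two h h' hx (hL α hα x hx) e (mt (hK.mem_iff hα).1 e)
  exact isPGroup_of_chain2 H.pg h2 (k _ _ h2 (AInv.top N) le_top (by omega))
    (k _ _ (AInv.top N).Phi h2 H.Phi_le_M (by omega))

/-- A saturated fusion system over a bicyclic `2`-group with noncyclic derived subgroup is inner. -/
theorem eq_inner {Ω : Type*} [Group Ω] {S : Subgroup Ω} [Finite S] (hS : IsPGroup 2 S)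
    (hb : ∃ x y : S, ∀ g : S, ∃ i j : ℤ, g = x ^ i * y ^ j) (hn : ¬ IsCyclic (commutator S))
    {F : FusionSystem S} (hF : F.IsSaturated 2) : F = innerFusionSystem S := by
  obtain ⟨x, y, hb⟩ := hb
  obtain ⟨a, z, H⟩ := Bi.bs ⟨trivial, trivial, fun g _ => hb g⟩ hS fun u e =>
    hn ((Subgroup.isCyclic_iff_exists_zpowers_eq_top _).2 ⟨u, e⟩)
  refine hF.eq_inner_of_isPGroup hS ?_
  rintro P (rfl | hP)
  · exact H.isPGroup_aut _
  obtain ⟨M, h⟩ := exists_essCtx hS hF hP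
  haveI := h.finite
  refine (H.no_ess (inclusion h.le) (inclusion_injective _) (fun e => h.lt.not_ge ?_) h.data
    (fun g hg => ?_) fun g hg => ?_).elim
  · rwa [inclusion_range, subgroupOf_eq_top] at e
  · have hg' : (g : Ω) ∈ normalizer (P : Set Ω) := mem_normalizer_of_conj_mem fun v hv => by
      obtain ⟨w, hw⟩ := conj_mem_of_mem_normalizer hg (⟨⟨v, hv⟩, rfl⟩ : _ ∈ (inclusion h.le).range)
      exact (congrArg Subtype.val hw).subst w.2
    exact ⟨_, FusionSystem.conjAut_mem_autInducedBy g.2 hg', fun _ => rfl⟩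
  · exact ⟨⟨g, h.mem_of_comm g.2 fun v hv => congrArg Subtype.val (hg ⟨v, hv⟩)⟩, rfl⟩

end Cfsg.Agent.H3.Bic
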